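import Cfsg.Agent.WeilGap.E

/-!
The irreducible characters of small degree of `Sp_{2m}(q)`, `q` odd (helper7): `Sm`, `TyC`, `sm_classify`.
-/

set_option autoImplicit false

namespace Cfsg.Agent.WeilGap

open Module Matrix Cfsg.Agent.Classical Cfsg.Agent.Deg Finset

variable {m : ℕ} {F : Type*} [Field F] [Fintype F] {ψ : AddChar F ℂ} {χ : symplecticGroup (Fin m) F → ℂ}

/-- The type of a character. -/
def TyC (ψ : AddChar F ℂ) (χ : symplecticGroup (Fin m) F → ℂ) : Prop :=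
  ∀ u b, ¬ IsSquare b → ∑ c, ψ (-(c * b)) * χ (spT u c) = 0

theorem ty_iff {V : Type*} [AddCommGroup V] [Module ℂ V] [FiniteDimensional ℂ V]
    (ρ : Representation ℂ (symplecticGroup (Fin m) F) V) (hψ : ψ ≠ 1) : Ty ρ ψ ↔ TyC ψ ρ.character := by
  classical
  refine forall₃_congr fun u b _ => ?_
  have hq : (Fintype.card F : ℂ) ≠ 0 := Nat.cast_ne_zero.2 Fintype.card_ne_zero
  have h : LinearMap.IsProj (eg ρ ψ (spT u) b) ((Fintype.card F : ℂ)⁻¹ • pj ρ ψ u b) := ⟨fun x =>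
    Submodule.smul_mem _ _ (ind1 (ρ := ρ) hψ u (S' := (eg ρ ψ (spT u) b).comap (pj ρ ψ u b)) (fun a y hy => by
      rw [Submodule.mem_comap, pj_apply hψ hy]
      split_ifs with h
      · exact Submodule.smul_mem _ _ (h ▸ hy)
      · simp) x), fun x hx => by
    rw [LinearMap.smul_apply, pj_apply hψ hx, if_pos rfl, smul_smul, inv_mul_cancel₀ hq, one_smul]⟩
  have h1 := h.trace
  simp only [pj, map_smul, map_sum, smul_eq_mul] at h1
  rw [← Submodule.finrank_eq_zero, ← Nat.cast_eq_zero (R := ℂ), ← h1, mul_eq_zero, inv_eq_zero, or_iff_right hq]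
  rfl

theorem TyC.swap {d : F} (hd : d ≠ 0) (h : TyC (ψ.mulShift d⁻¹) χ) : TyC ψ fun g => χ (dgHom m hd g) := by
  intro u b hb
  rw [← Equiv.sum_comp (Equiv.mulLeft₀ d hd)]
  have := h (dg m d *ᵥ u) (d ^ 2 * b) (fun ⟨r, hr⟩ => hb ⟨r / d, by field_simp; linear_combination hr⟩)
  refine Eq.trans (sum_congr rfl fun c _ => ?_) this
  simp only [Equiv.mulLeft₀_apply, dgHom_spT, AddChar.mulShift_apply]
  congr 2
  field_simp

/-- Nonlinear irreducible characters of small degree. -/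
def Sm (χ : symplecticGroup (Fin m) F → ℂ) : Prop :=
  IsIrrCharacter _ χ ∧ ∃ n : ℕ, χ 1 = n ∧ n ≠ 1 ∧
    2 * (Fintype.card F + 1) * n < (Fintype.card F ^ m - 1) * (Fintype.card F ^ m - Fintype.card F)

theorem Sm.rep (hodd : Fintype.card F % 2 = 1) (h2 : (2 : F) ≠ 0) (hm : 2 ≤ m) (h : Sm χ) :
    ∃ (n : ℕ) (ρ : Representation ℂ (symplecticGroup (Fin m) F) (Fin n → ℂ)), ρ.IsIrreducible ∧ ρ.character = χ ∧
      (∀ x, (∀ g, ρ g x = x) → x = 0) ∧ ∀ ψ : AddChar F ℂ, ψ ≠ 1 → Rk1 ρ ψ := by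
  obtain ⟨⟨n, ρ, hρ, rfl⟩, k, h1, h3, h4⟩ := h
  obtain rfl : n = k := by simpa using h1
  refine ⟨n, ρ, hρ, rfl, fun x hx => ?_, fun ψ hψ => rk1_of_lt hodd h2 hm hψ (by simpa using h4)⟩
  by_contra h0
  rcases ((Char.isIrreducible_iff ρ).1 hρ).2 (Submodule.span ℂ {x}) (fun g y hy => by
    obtain ⟨c, rfl⟩ := Submodule.mem_span_singleton.1 hy
    rwa [map_smul, hx]) with h | h
  · exact h0 (Submodule.span_singleton_eq_bot.1 h)
  · have := finrank_span_singleton (K := ℂ) h0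
    rw [h] at this
    exact h3 (by simpa using this)

theorem mulShift_ne (hψ : ψ ≠ 1) {d : F} (hd : d ≠ 0) : ψ.mulShift d ≠ 1 := AddChar.IsPrimitive.of_ne_one hψ hd

theorem Sm.ty_or (hodd : Fintype.card F % 2 = 1) (h2 : (2 : F) ≠ 0) (hm : 2 ≤ m) (h : Sm χ) (hψ : ψ ≠ 1) {δ : F}
    (hδ : ¬ IsSquare δ) : TyC ψ χ ∨ TyC (ψ.mulShift δ) χ := by
  obtain ⟨n, ρ, hρ, rfl, hV, hR⟩ := h.rep hodd h2 hm
  rw [← ty_iff ρ hψ, ← ty_iff ρ (mulShift_ne hψ (by rintro rfl; exact hδ IsSquare.zero))]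
  exact WeilGap.ty_or h2 hψ (hR ψ hψ) hm hV ((Char.isIrreducible_iff ρ).1 hρ).2 hδ

theorem Sm.not_both (hodd : Fintype.card F % 2 = 1) (h2 : (2 : F) ≠ 0) (hm : 2 ≤ m) (h : Sm χ) (hψ : ψ ≠ 1) {δ : F}
    (hδ : ¬ IsSquare δ) (h1 : TyC ψ χ) (h3 : TyC (ψ.mulShift δ) χ) : False := by
  obtain ⟨n, ρ, hρ, rfl, hV, hR⟩ := h.rep hodd h2 hm
  have hδ0 : δ ≠ 0 := by rintro rfl; exact hδ IsSquare.zero
  rw [← ty_iff ρ hψ] at h1
  rw [← ty_iff ρ (mulShift_ne hψ hδ0)] at h3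
  obtain ⟨x, hx⟩ := @exists_ne _ ((Char.isIrreducible_iff ρ).1 hρ).1 0
  refine hx (hV x (fix_of_spT fun u => (eg_zero (ψ := ψ)).1 (ind1 (ρ := ρ) hψ u (fun b => h1.le fun a _ => ?_) x)))
  by_cases ha : a = 0
  · simp [ha]
  · have := h3 u (δ⁻¹ * a ^ 2) fun ⟨r, hr⟩ => hδ ⟨δ * r / a, by field_simp at hr ⊢; linear_combination hr⟩
    rw [eg_mulShift, mul_inv_cancel_left₀ hδ0] at this
    exact this ▸ bot_le

theorem Sm.eq_or (hodd : Fintype.card F % 2 = 1) (h2 : (2 : F) ≠ 0) (hm : 2 ≤ m) (hψ : ψ ≠ 1)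
    {χ₁ χ₂ χ₃ : symplecticGroup (Fin m) F → ℂ} (h₁ : Sm χ₁ ∧ TyC ψ χ₁) (h₂ : Sm χ₂ ∧ TyC ψ χ₂) (h₃ : Sm χ₃ ∧ TyC ψ χ₃)
    (h : χ₁ ≠ χ₂) : χ₃ = χ₁ ∨ χ₃ = χ₂ := by
  classical
  by_contra! h'
  let S : Finset (symplecticGroup (Fin m) F → ℂ) := {χ₃, χ₁, χ₂}
  have hs : ∀ i : S, Sm i.1 ∧ TyC ψ i.1 := fun ⟨i, hi⟩ => by
    simp only [S, mem_insert, mem_singleton] at hi
    rcases hi with rfl | rfl | rfl <;> assumption
  choose n ρ hρ e hV hR using fun i => (hs i).1.rep hodd h2 hm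
  have hli : LinearIndependent ℂ fun i => (ρ i).character :=
    (Char.linearIndependent_irr (G := symplecticGroup (Fin m) F)).comp
      (fun i : S => (⟨(ρ i).character, _, _, hρ i, rfl⟩ : IrrCharacter _)) fun i j hij =>
        Subtype.ext (by simpa only [e] using congrArg Subtype.val hij)
  have := card_le_two h2 hψ hm ρ hli (fun i => hR i ψ hψ) (fun i => (ty_iff _ hψ).2 (by rw [e]; exact (hs i).2)) hV
  rw [Fintype.card_coe, card_insert_of_notMem (by simp [h'.1, h'.2]), card_pair h] at this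
  omega

theorem exists_sm (hodd : Fintype.card F % 2 = 1) (h2 : (2 : F) ≠ 0) (hm : 2 ≤ m) (hψ : ψ ≠ 1) {ε : ℂ}
    (hε : ε = 1 ∨ ε = -1) : ∃ χ : symplecticGroup (Fin m) F → ℂ, (Sm χ ∧ TyC ψ χ) ∧
      2 * χ 1 = (Fintype.card F : ℂ) ^ m + ε := by
  classical
  have hq : 3 ≤ Fintype.card F := by
    have := Fintype.one_lt_card (α := F)
    omega
  have hQ : Fintype.card F * Fintype.card F ≤ Fintype.card F ^ m := by
    rw [← sq]
    exact Nat.pow_le_pow_right (by omega) hm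
  have key : ∀ χ : symplecticGroup (Fin m) F → ℂ, IsIrrCharacter _ χ → 2 * χ 1 = (Fintype.card F : ℂ) ^ m + ε → Sm χ := by
    intro χ h1 h3
    obtain ⟨n, -, hn⟩ := Char.IsIrrCharacter.exists_pos_apply_one h1
    have h4 : 2 * n = Fintype.card F ^ m + 1 ∨ 2 * n + 1 = Fintype.card F ^ m := by
      rw [hn] at h3
      rcases hε with rfl | rfl
      · exact .inl (by exact_mod_cast h3)
      · exact .inr (by exact_mod_cast (show (2 * n + 1 : ℂ) = (Fintype.card F : ℂ) ^ m by linear_combination h3))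
    refine ⟨h1, n, hn, ?_⟩
    generalize Fintype.card F ^ m = Q at *
    generalize Fintype.card F = q at *
    have h5 : 3 * q ≤ Q := by nlinarith
    have h6 : 2 * q + 3 ≤ Q := by nlinarith
    refine ⟨by omega, ?_⟩
    obtain ⟨R, rfl⟩ := Nat.exists_eq_add_of_le h6
    rw [show 2 * q + 3 + R - 1 = 2 * q + 2 + R by omega, show 2 * q + 3 + R - q = q + 3 + R by omega]
    have h7 : 2 * n ≤ 2 * q + 4 + R := by omega
    nlinarith
  obtain ⟨χ, h1, h3⟩ := exists_weil_char (F := F) (m := m) (by omega) h2 (ε := ε) (by rcases hε with rfl | rfl <;> simp) (by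
    have h4 : 1 < Fintype.card F ^ m := by nlinarith
    rcases hε with rfl | rfl
    · exact_mod_cast Nat.succ_ne_zero (Fintype.card F ^ m)
    · rw [← sub_eq_add_neg, sub_ne_zero]
      exact_mod_cast h4.ne')
  obtain ⟨δ, hδ⟩ := FiniteField.exists_nonsquare (F := F) (fun h => h2 (by
    have := (ringChar.spec F 2).2 (by rw [h])
    exact_mod_cast this))
  rcases (key χ h1 h3).ty_or hodd h2 hm hψ hδ with h | h
  · exact ⟨χ, ⟨key χ h1 h3, h⟩, h3⟩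
  · have hδ0 : δ⁻¹ ≠ 0 := inv_ne_zero (by rintro rfl; exact hδ IsSquare.zero)
    exact ⟨_, ⟨key _ (Char.IsIrrCharacter.comp_of_surjective h1 _ (dgHom_surjective hδ0)) (by simpa using h3),
      TyC.swap hδ0 (by rwa [inv_inv])⟩, by simpa using h3⟩

theorem sm_classify (hodd : Fintype.card F % 2 = 1) (h2 : (2 : F) ≠ 0) (hm : 2 ≤ m) :
    ∃ a a' b b' : symplecticGroup (Fin m) F → ℂ, (Sm a ∧ Sm a' ∧ Sm b ∧ Sm b') ∧ a ≠ a' ∧ b ≠ b' ∧
      (2 * a 1 = (Fintype.card F : ℂ) ^ m + 1 ∧ 2 * a' 1 = (Fintype.card F : ℂ) ^ m + 1) ∧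
      (2 * b 1 = (Fintype.card F : ℂ) ^ m + -1 ∧ 2 * b' 1 = (Fintype.card F : ℂ) ^ m + -1) ∧
      ∀ χ, Sm χ → (χ = a ∨ χ = b) ∨ χ = a' ∨ χ = b' := by
  obtain ⟨ψ, hψ⟩ := exists_complex_psi F
  obtain ⟨δ, hδ⟩ := FiniteField.exists_nonsquare (F := F) (fun h => h2 (by
    have := (ringChar.spec F 2).2 (by rw [h])
    exact_mod_cast this))
  have hψ' := mulShift_ne hψ (d := δ) (by rintro rfl; exact hδ IsSquare.zero)
  obtain ⟨a, ha, ea⟩ := exists_sm hodd h2 hm hψ (.inl rfl)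
  obtain ⟨b, hb, eb⟩ := exists_sm hodd h2 hm hψ (.inr rfl)
  obtain ⟨a', ha', ea'⟩ := exists_sm hodd h2 hm hψ' (.inl rfl)
  obtain ⟨b', hb', eb'⟩ := exists_sm hodd h2 hm hψ' (.inr rfl)
  refine ⟨a, a', b, b', ⟨ha.1, ha'.1, hb.1, hb'.1⟩, fun e => ha.1.not_both hodd h2 hm hψ hδ ha.2 (e ▸ ha'.2),
    fun e => hb.1.not_both hodd h2 hm hψ hδ hb.2 (e ▸ hb'.2), ⟨ea, ea'⟩, ⟨eb, eb'⟩, fun χ h =>
    (h.ty_or hodd h2 hm hψ hδ).imp (fun h' => Sm.eq_or hodd h2 hm hψ ha hb ⟨h, h'⟩ fun e => ?_)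
      fun h' => Sm.eq_or hodd h2 hm hψ' ha' hb' ⟨h, h'⟩ fun e => ?_⟩
  · rw [e, eb] at ea
    norm_num at ea
  · rw [e, eb'] at ea'
    norm_num at ea'

end Cfsg.Agent.WeilGap
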