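import Cfsg.Agent.Deg.SpEven

/-!
The orbit bound for weights of rank at least two of the Siegel radical of `Sp_{2m}(q)`, `q` odd (helper7):
`sp_odd_bound`.
-/

set_option autoImplicit false

namespace Cfsg.Agent.WeilGap

open Module Matrix Cfsg.Agent.Classical Cfsg.Agent.Deg QuadraticMap Finset

variable {F : Type*} [Field F] [Fintype F] [DecidableEq F]

theorem card_conic1 (h2 : (2 : F) ≠ 0) {k : F} (hk : k ≠ 0) :
    #{p : F × F | p.1 ^ 2 + k * p.2 ^ 2 = 1} ≤ Fintype.card F + 1 := by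
  rw [← Fintype.card_option, ← card_univ]
  refine card_le_card_of_injOn (fun p => if p.1 = 1 then none else some (p.2 / (p.1 - 1))) (fun _ _ => by simp) ?_
  rintro ⟨s, t⟩ hp ⟨s', t'⟩ hp' e
  simp only [coe_filter, mem_univ, true_and, Set.mem_ofPred_eq] at hp hp' e
  by_cases h : s = 1 <;> by_cases h' : s' = 1 <;> simp only [h, h', if_true, if_false, reduceCtorEq] at e
  · subst h h'
    have h1 : t = 0 := pow_eq_zero_iff two_ne_zero |>.1 ((mul_eq_zero.1 (by linear_combination hp)).resolve_left hk)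
    have h2 : t' = 0 := pow_eq_zero_iff two_ne_zero |>.1 ((mul_eq_zero.1 (by linear_combination hp')).resolve_left hk)
    rw [h1, h2]
  · have hs := sub_ne_zero.2 h
    have hs' := sub_ne_zero.2 h'
    obtain ⟨x, rfl⟩ : ∃ x, t = x * (s - 1) := ⟨t / (s - 1), by field_simp⟩
    obtain rfl : t' = x * (s' - 1) := by
      have := Option.some.inj e
      field_simp at this
      linear_combination -this
    have e1 : s + 1 + k * x ^ 2 * (s - 1) = 0 := mul_left_cancel₀ hs (by linear_combination hp)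
    have e2 : s' + 1 + k * x ^ 2 * (s' - 1) = 0 := mul_left_cancel₀ hs' (by linear_combination hp')
    have e3 : 1 + k * x ^ 2 ≠ 0 := fun h0 => h2 (by linear_combination e1 - (s - 1) * h0)
    rw [show s = s' from mul_left_cancel₀ e3 (by linear_combination e1 - e2)]

theorem card_conic (h2 : (2 : F) ≠ 0) {a b c : F} (ha : a ≠ 0) (hb : b ≠ 0) (hc : c ≠ 0) :
    #{p : F × F | a * p.1 ^ 2 + b * p.2 ^ 2 = c} ≤ Fintype.card F + 1 := by
  refine (show ∀ S : Finset (F × F), (S.Nonempty → #S ≤ Fintype.card F + 1) → #S ≤ Fintype.card F + 1 from fun S h =>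
      S.eq_empty_or_nonempty.elim (fun h0 => by simp [h0]) h) _ ?_
  rintro ⟨⟨s₀, t₀⟩, h0⟩
  simp only [mem_filter, mem_univ, true_and] at h0
  refine le_trans (card_le_card_of_injOn
    (fun p => ((a * p.1 * s₀ + b * p.2 * t₀) / c, (p.2 * s₀ - p.1 * t₀) / c)) (fun p hp => ?_) ?_)
    (card_conic1 h2 (mul_ne_zero ha hb))
  · simp only [coe_filter, mem_univ, true_and, Set.mem_ofPred_eq] at hp ⊢
    field_simp
    linear_combination (a * s₀ ^ 2 + b * t₀ ^ 2) * hp + c * h0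
  · rintro ⟨s, t⟩ - ⟨s', t'⟩ - e
    simp only [Prod.mk.injEq, div_left_inj' hc] at e
    refine Prod.ext (mul_left_cancel₀ hc ?_) (mul_left_cancel₀ hc ?_)
    · linear_combination s₀ * e.1 - b * t₀ * e.2 - (s - s') * h0
    · linear_combination t₀ * e.1 + a * s₀ * e.2 - (t - t') * h0

theorem card_pairs (h2 : (2 : F) ≠ 0) {a b : F} (ha : a ≠ 0) (hb : b ≠ 0) (α β γ : F)
    (h : α ≠ 0 ∨ ∀ s t : F, a * s ^ 2 + b * t ^ 2 = 0 → s = 0 ∧ t = 0) :
    #{p : (F × F) × F × F | a * p.1.1 ^ 2 + b * p.1.2 ^ 2 = α ∧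
      a * p.2.1 ^ 2 + b * p.2.2 ^ 2 = β ∧ a * p.1.1 * p.2.1 + b * p.1.2 * p.2.2 = γ} ≤
      2 * (Fintype.card F + 1) := by
  by_cases hα : α = 0
  · have h := h.resolve_left (by simpa using hα)
    refine le_trans (card_le_card_of_injOn (t := {p : F × F | a * p.1 ^ 2 + b * p.2 ^ 2 = β}) Prod.snd
      (fun p hp => by simpa using (mem_filter.1 hp).2.2.1) fun p hp p' hp' e => ?_) ?_
    · have h1 := h _ _ ((mem_filter.1 hp).2.1.trans hα)
      have h1' := h _ _ ((mem_filter.1 hp').2.1.trans hα)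
      exact Prod.ext (Prod.ext (h1.1.trans h1'.1.symm) (h1.2.trans h1'.2.symm)) e
    · by_cases hβ : β = 0
      · refine le_trans (card_le_card (t := {(0, 0)}) fun p hp => ?_) (by simp; omega)
        have h1 := h _ _ ((mem_filter.1 hp).2.trans hβ)
        exact mem_singleton.2 (Prod.ext h1.1 h1.2)
      · have := card_conic h2 ha hb hβ
        omega
  · refine le_trans (card_le_mul_card_image_of_maps_to (f := Prod.fst)
      (t := {p : F × F | a * p.1 ^ 2 + b * p.2 ^ 2 = α})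
      (fun p hp => by simpa using (mem_filter.1 hp).2.1) 2 ?_) (Nat.mul_le_mul_left _ (card_conic h2 ha hb hα))
    rintro ⟨s, t⟩ -
    refine le_trans (card_le_card_of_injOn (fun p => t * p.2.1 - s * p.2.2) ?_ ?_)
      (card_sq_le ((α * β - γ ^ 2) / (a * b)))
    · rintro ⟨_, x, y⟩ h1
      simp only [coe_filter, mem_filter, mem_univ, true_and, Set.mem_ofPred_eq] at h1 ⊢
      obtain ⟨⟨h3, h4, h5⟩, rfl⟩ := h1
      simp only at h3 h4 h5
      field_simp
      rw [← h3, ← h4, ← h5]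
      ring
    · rintro ⟨_, x, y⟩ h0 ⟨_, x', y'⟩ h1 e
      simp only [coe_filter, mem_filter, mem_univ, true_and, Set.mem_ofPred_eq] at h0 h1 e
      obtain ⟨⟨h3, -, h5⟩, rfl⟩ := h0
      obtain ⟨⟨-, -, h7⟩, rfl⟩ := h1
      simp only at h3 h5 h7
      refine Prod.ext rfl (Prod.ext (mul_left_cancel₀ hα ?_) (mul_left_cancel₀ hα ?_))
      · linear_combination s * (h5 - h7) + b * t * e - (x - x') * h3
      · linear_combination t * (h5 - h7) - a * s * e - (y - y') * h3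

variable {V : Type*} [AddCommGroup V] [Module F V] [Fintype V] [DecidableEq V]

theorem exists_bin (hodd : Fintype.card F % 2 = 1) {a b : F} (ha : a ≠ 0) (hb : b ≠ 0) (d : F) :
    ∃ s t : F, a * s ^ 2 + b * t ^ 2 = d := by
  open Polynomial in
  obtain ⟨s, t, h⟩ := FiniteField.exists_root_sum_quadratic (f := C a * X ^ 2) (g := C b * X ^ 2 - C d)
    (by simpa using degree_C_mul_X_pow 2 ha) (by
      rw [degree_sub_eq_left_of_degree_lt] <;> rw [degree_C_mul_X_pow 2 hb]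
      · rfl
      · exact degree_C_le.trans_lt (by norm_num)) hodd
  exact ⟨s, t, by simp at h; linear_combination h⟩

omit [Fintype V] [DecidableEq V] in
theorem exists_pair (hodd : Fintype.card F % 2 = 1) (h2 : (2 : F) ≠ 0) (Q : QuadraticForm F V) {e₀ f₀ : V}
    (h : polar Q e₀ f₀ ^ 2 ≠ 4 * Q e₀ * Q f₀) :
    ∃ e f, polar Q e f = 0 ∧ Q e ≠ 0 ∧ Q f ≠ 0 ∧ ((∀ s t : F, Q e * s ^ 2 + Q f * t ^ 2 = 0 → s = 0 ∧ t = 0) ∨
      ∀ u, polar Q u e = 0 → polar Q u f = 0 → Q u = 0) := by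
  have hs : ∀ x, polar Q x x = 2 * Q x := fun x => by rw [polar_self, two_smul, ← two_mul]
  have step : ∀ e f, Q e ≠ 0 → polar Q e f ^ 2 ≠ 4 * Q e * Q f → ∃ f, polar Q e f = 0 ∧ Q f ≠ 0 := fun e f he h =>
    ⟨(2 * Q e) • f + (-polar Q e f) • e, by simp [hs, mul_comm], fun h0 => h (by
      rw [QuadraticMap.map_add Q] at h0
      simp only [QuadraticMap.map_smul, polar_smul_left, polar_smul_right, polar_comm Q f e, smul_eq_mul] at h0
      exact mul_left_cancel₀ he (by linear_combination -h0))⟩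
  obtain ⟨e, f, h1, he, hf⟩ : ∃ e f, polar Q e f = 0 ∧ Q e ≠ 0 ∧ Q f ≠ 0 := by
    by_cases he : Q e₀ = 0
    · by_cases hf : Q f₀ = 0
      · have h3 : polar Q e₀ f₀ ≠ 0 := fun h0 => h (by simp [h0, he])
        have h4 : Q (e₀ + f₀) = polar Q e₀ f₀ := by simp [polar, he, hf]
        obtain ⟨f, h5, h6⟩ := step (e₀ + f₀) f₀ (h4 ▸ h3) (by simp [hs, hf, h3])
        exact ⟨_, f, h5, h4 ▸ h3, h6⟩
      · obtain ⟨f, h5, h6⟩ := step f₀ e₀ hf (by rw [polar_comm]; intro h0; exact h (by linear_combination h0))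
        exact ⟨_, f, h5, hf, h6⟩
    · obtain ⟨f, h5, h6⟩ := step e₀ f₀ he h
      exact ⟨_, f, h5, he, h6⟩
  by_cases hu : ∀ u, polar Q u e = 0 → polar Q u f = 0 → Q u = 0
  · exact ⟨e, f, h1, he, hf, .inr hu⟩
  push Not at hu
  obtain ⟨u, h7, h8, h9⟩ := hu
  obtain ⟨δ, hδ⟩ := FiniteField.exists_nonsquare (F := F) (fun h => h2 (by
    have := (ringChar.spec F 2).2 (by rw [h])
    exact_mod_cast this))
  have hδ0 : δ ≠ 0 := by rintro rfl; exact hδ IsSquare.zero
  obtain ⟨s, t, hst⟩ := exists_bin hodd he hf (-δ * Q u)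
  have hy : Q (s • e + t • f) = -δ * Q u := by
    rw [QuadraticMap.map_add Q]
    simp only [QuadraticMap.map_smul, polar_smul_left, polar_smul_right, h1, smul_eq_mul]
    linear_combination hst
  refine ⟨u, s • e + t • f, by simp [h7, h8], h9, by simp [hy, hδ0, h9], .inl fun x y hxy => ?_⟩
  rw [hy] at hxy
  have h3 : x ^ 2 = δ * y ^ 2 := mul_left_cancel₀ h9 (by linear_combination hxy)
  by_cases hy0 : y = 0
  · simpa [hy0] using h3
  · exact (hδ ⟨x / y, by field_simp; linear_combination -h3⟩).elim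

theorem card_le_of_pair (h2 : (2 : F) ≠ 0) (Q : QuadraticForm F V) {e f : V} (h1 : polar Q e f = 0) (he : Q e ≠ 0)
    (hf : Q f ≠ 0) (h : (∀ s t : F, Q e * s ^ 2 + Q f * t ^ 2 = 0 → s = 0 ∧ t = 0) ∨
      ∀ u, polar Q u e = 0 → polar Q u f = 0 → Q u = 0) :
    #{x : Fin 2 → V | Q (x 0) = Q e ∧ Q (x 1) = Q f ∧ polar Q (x 0) (x 1) = 0} ≤
      2 * (Fintype.card F + 1) * (Fintype.card F ^ (finrank F V - 2)) ^ 2 := by
  have hs : ∀ x, polar Q x x = 2 * Q x := fun x => by rw [polar_self, two_smul, ← two_mul]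
  let φ : V →ₗ[F] F × F := ((2 * Q e)⁻¹ • Q.polarBilin.flip e).prod ((2 * Q f)⁻¹ • Q.polarBilin.flip f)
  have hφ : ∀ v, φ v = ((2 * Q e)⁻¹ * polar Q v e, (2 * Q f)⁻¹ * polar Q v f) := fun v => rfl
  have he' : (2 * Q e)⁻¹ * (2 * Q e) = 1 := inv_mul_cancel₀ (mul_ne_zero h2 he)
  have hf' : (2 * Q f)⁻¹ * (2 * Q f) = 1 := inv_mul_cancel₀ (mul_ne_zero h2 hf)
  have hφe : φ e = (1, 0) := by rw [hφ, hs, h1, he', mul_zero]
  have hφf : φ f = (0, 1) := by rw [hφ, hs, polar_comm, h1, hf', mul_zero]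
  rw [← (card_ker2 φ).2 fun p => ⟨p.1 • e + p.2 • f, by simp [hφe, hφf]⟩, pow_two, ← card_product]
  let p : V → V := fun v => v - ((φ v).1 • e + (φ v).2 • f)
  refine card_le_mul_card_image_of_maps_to (f := fun x => (p (x 0), p (x 1)))
    (fun x _ => by simp [p, hφe, hφf]) _ ?_
  rintro ⟨u, w⟩ huw
  simp only [mem_product, mem_filter, mem_univ, true_and, hφ, Prod.mk_eq_zero, mul_eq_zero, inv_eq_zero, h2, he, hf,
    false_or] at huw
  refine le_trans (card_le_card_of_injOn (fun x => (φ (x 0), φ (x 1))) (fun x hx => ?_) fun x hx x' hx' e' => ?_)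
    (card_pairs h2 he hf (Q e - Q u) (Q f - Q w) (-polar Q u w / 2) (h.symm.imp_left fun h => by
      simpa [h u huw.1.1 huw.1.2] using he))
  · simp only [coe_filter, mem_filter, mem_univ, true_and, Set.mem_ofPred_eq, Prod.mk.injEq, p, sub_eq_iff_eq_add]
      at hx ⊢
    obtain ⟨⟨h3, h4, h5⟩, h6, h7⟩ := hx
    rw [h6] at h3 h5
    rw [h7] at h4 h5
    generalize (φ (x 0)).1 = s at *
    generalize (φ (x 0)).2 = t at *
    generalize (φ (x 1)).1 = s' at *
    generalize (φ (x 1)).2 = t' at *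
    simp [QuadraticMap.map_add Q, QuadraticMap.map_smul, huw, h1, hs, polar_comm Q f e, polar_comm Q e w,
      polar_comm Q f w] at h3 h4 h5
    exact ⟨by linear_combination h3, by linear_combination h4, by field_simp; linear_combination h5⟩
  · have h3 := (mem_filter.1 hx).2.trans (mem_filter.1 hx').2.symm
    simp only [Prod.mk.injEq, p] at h3 e'
    rw [e'.1, e'.2, sub_left_inj, sub_left_inj] at h3
    funext i
    fin_cases i
    exacts [h3.1, h3.2]

/-- The Siegel radical, parametrized by the symmetric matrices. -/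
def sU (m : ℕ) (F : Type*) [Field F] (S : symM (Fin m) F) : symplecticGroup (Fin m) F := spUni S.1 S.2

theorem sp_odd_bound {m : ℕ} {K : Type*} [Field K] {W : Type*} [AddCommGroup W] [Module K W] [FiniteDimensional K W]
    (hodd : Fintype.card F % 2 = 1) (h2 : (2 : F) ≠ 0) (hm : 2 ≤ m) {ψ : AddChar F K} (hψ : ψ ≠ 1)
    {ρ : symplecticGroup (Fin m) F →* End K W} {L₀ : Dual F (symM (Fin m) F)} (hw : wt ρ ψ (sU m F) L₀ ≠ ⊥)
    {e₀ f₀ : Fin m → F} (h₀ : polar (qf L₀) e₀ f₀ ^ 2 ≠ 4 * qf L₀ e₀ * qf L₀ f₀) :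
    (Fintype.card F ^ m - 1) * (Fintype.card F ^ m - Fintype.card F) ≤ 2 * (Fintype.card F + 1) * finrank K W := by
  classical
  have := finite_dual (F := F) (M := symM (Fin m) F)
  have := Fintype.ofFinite (Dual F (symM (Fin m) F))
  let u := sU m F
  have hl : ∀ g : Matrix (Fin m) (Fin m) F, det g ≠ 0 → ∃ l, ∀ S, l * u S * l⁻¹ = u (cjS g S) := fun g hg =>
    (levi_uni g hg).imp fun l hl S => hl _ _ (cjS g S).2
  obtain ⟨e, f, h1, he, hf, h⟩ := exists_pair hodd h2 (qf L₀) h₀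
  have hs : ∀ (L : Dual F (symM (Fin m) F)) x, polar (qf L) x x = 2 * qf L x := fun L x => by
    rw [polar_self, two_smul, ← two_mul]
  have hef : LinearIndependent F ![e, f] := LinearIndependent.pair_iff.2 fun s t h => by
    have h3 := congrArg (polar (qf L₀) e) h
    have h4 := congrArg (polar (qf L₀) f) h
    simp [hs, h1, polar_comm _ f e, h2, he, hf] at h3 h4
    exact ⟨h3, h4⟩
  let r := fun (x : Fin 2 → Fin m → F) (L : Dual F (symM (Fin m) F)) =>
    qf L (x 0) = qf L₀ e ∧ qf L (x 1) = qf L₀ f ∧ polar (qf L) (x 0) (x 1) = 0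
  let O := univ.filter fun L : Dual F (symM (Fin m) F) => wt ρ ψ u L ≠ ⊥ ∧ #{x | r x L} ≤ #{x | r x L₀}
  have hO : ∀ L ∈ O, ∀ g, det g ≠ 0 → L ∘ₗ cjS g ∈ O := fun L hL g hg => by
    obtain ⟨l, hl⟩ := hl g hg
    refine mem_filter.2 ⟨mem_univ _, wt_ne_bot hl (mem_filter.1 hL).2.1, le_trans (card_le_card_of_injOn
      (fun x k => g *ᵥ x k) (fun x hx => by simpa [r, qf_cjS, polar_cjS] using hx) fun x _ y _ e => funext fun k =>
        mulVec_injective_of_isUnit ((isUnit_iff_isUnit_det _).2 hg.isUnit) (congrFun e k)) (mem_filter.1 hL).2.2⟩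
  have h3 := card_mul_le (ρ := ρ) (u := u) hψ O (d := 1) fun L hL =>
    Nat.one_le_iff_ne_zero.2 fun h' => (mem_filter.1 hL).2.1 (Submodule.finrank_eq_zero.1 h')
  have h4 := card_mul_le_card_mul (s := univ.filter fun x => LinearIndependent F x) (t := O) r
    (m := (Fintype.card F ^ (m - 2)) ^ 2) (n := 2 * (Fintype.card F + 1) * (Fintype.card F ^ (m - 2)) ^ 2)
    (fun x hx => ?_) fun L hL => ?_
  · have h5 := card_linearIndependent (K := F) (V := Fin m → F) (k := 2) (by simpa using hm)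
    rw [Nat.card_eq_fintype_card, Fintype.card_subtype] at h5
    rw [h5, ← mul_assoc] at h4
    have h6 := Nat.le_of_mul_le_mul_right h4 (pow_pos (pow_pos Fintype.card_pos _) _)
    simp only [Fin.prod_univ_two, finrank_fin_fun, Fin.val_zero, Fin.val_one, pow_zero, pow_one, mul_one] at h3 h6
    exact h6.trans (by rw [mul_comm]; exact Nat.mul_le_mul_left _ h3)
  · obtain ⟨g, hg, hx'⟩ := exists_det_ne_pair (mem_filter.1 hx).2 hef
    let φ : (Fin m → F) →ₗ[F] F × F := ((dotProductBilin F F).flip (x 0)).prod ((dotProductBilin F F).flip (x 1))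
    have h5 := (card_ker2 φ).1
    rw [finrank_fin_fun] at h5
    refine le_trans (Nat.pow_le_pow_left h5 2) ?_
    rw [pow_two, ← card_product]
    have hφ : ∀ p ∈ (univ.filter fun v => φ v = 0) ×ˢ (univ.filter fun v => φ v = 0),
        (p.1 ⬝ᵥ x 0 = 0 ∧ p.1 ⬝ᵥ x 1 = 0) ∧ p.2 ⬝ᵥ x 0 = 0 ∧ p.2 ⬝ᵥ x 1 = 0 := fun p hp => by simpa [φ] using hp
    have hv : ∀ p : (Fin m → F) × (Fin m → F), p.1 ⬝ᵥ x 1 = 0 → ∀ v,
        ((1 + vecMulVec (x 0) p.1) * (1 + vecMulVec (x 1) p.2)) *ᵥ v = v + (p.1 ⬝ᵥ v) • x 0 + (p.2 ⬝ᵥ v) • x 1 :=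
      fun p hp v => by
        simp only [← mulVec_mulVec, add_mulVec, vecMulVec_mulVec, one_mulVec, op_smul_eq_smul, dotProduct_add,
          dotProduct_smul, hp, smul_zero, add_zero]
        abel
    have hx0 : g *ᵥ x 0 = e := hx' 0
    have hx1 : g *ᵥ x 1 = f := hx' 1
    refine card_le_card_of_injOn (fun p => (L₀ ∘ₗ cjS g) ∘ₗ cjS ((1 + vecMulVec (x 0) p.1) * (1 + vecMulVec (x 1) p.2)))
      (fun p hp => ?_) fun p hp p' hp' e' => ?_
    · have h6 := hφ p hp
      exact mem_filter.2 ⟨hO _ (hO _ (mem_filter.2 ⟨mem_univ _, hw, le_rfl⟩) g hg) _ (by simp [det_one_add_vv, h6]), by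
        simp [r, qf_cjS, polar_cjS, hv p h6.1.2, h6, hx0, hx1, h1]⟩
    · have h6 := hφ p hp
      have h7 := hφ p' hp'
      refine Prod.ext (funext fun k => ?_) (funext fun k => ?_)
      · simpa [polar_cjS, hv p h6.1.2, hv p' h7.1.2, h6, h7, mulVec_add, mulVec_smul, hx0, hx1, h1, hs,
          polar_comm _ f e, h2, he, qf_cjS] using congrArg (fun L => polar (qf L) (Pi.single k 1) (x 0)) e'
      · simpa [polar_cjS, hv p h6.1.2, hv p' h7.1.2, h6, h7, mulVec_add, mulVec_smul, hx0, hx1, h1, hs, h2, hf, qf_cjS] using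
          congrArg (fun L => polar (qf L) (Pi.single k 1) (x 1)) e'
  · refine le_trans (card_le_card fun x hx => mem_filter.2 ⟨mem_univ _, (mem_filter.1 hx).2⟩)
      ((mem_filter.1 hL).2.2.trans ?_)
    simpa using card_le_of_pair h2 (qf L₀) h1 he hf h

end Cfsg.Agent.WeilGap
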