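import Cfsg.Agent.WeilGap.A
import Cfsg.Agent.Classical.SpGen

/-!
Representations of `Sp_{2m}(q)`, `q` odd, whose weights on Siegel radicals have rank at most one (helper7):
the Heisenberg elements `hh`, eigenspaces `eg`, the property `Rk1` (`rk1_of_lt`) and the weight inductions `ind1`, `ind2`.
-/

set_option autoImplicit false

namespace Cfsg.Agent.WeilGap

open Module Matrix Cfsg.Agent.Classical Cfsg.Agent.Deg QuadraticMap Finset

section Grp
variable {m : ℕ} {F : Type*} [Field F]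

/-- The Siegel element `x ↦ x + ω(x, u) v + ω(x, v) u` (for `u ⊥ v`). -/
def hh (u v : Fin m ⊕ Fin m → F) : symplecticGroup (Fin m) F := spT (u + v) 1 * spT u (-1) * spT v (-1)

variable {u v w : Fin m ⊕ Fin m → F}

theorem perp_symm (h : sympForm m F u v = 0) : sympForm m F v u = 0 := by rw [sympForm_swap, h, neg_zero]

theorem hh_smul (h : sympForm m F u v = 0) (x : Fin m ⊕ Fin m → F) :
    hh u v • x = x + sympForm m F x u • v + sympForm m F x v • u := by
  simp only [hh, mul_smul, spT_smul, sympForm_add_left, sympForm_add_right, sympForm_smul_left, h, perp_symm h,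
    sympForm_self]
  module

theorem hh_mul (hv : sympForm m F u v = 0) (hw : sympForm m F u w = 0) :
    hh u v * hh u w = hh u (v + w) * spT u (sympForm m F w v) := by
  have h : sympForm m F u (v + w) = 0 := by rw [sympForm_add_right, hv, hw, add_zero]
  refine sp_ext fun x => ?_
  simp only [mul_smul, hh_smul hv, hh_smul hw, hh_smul h, spT_smul, sympForm_add_left, sympForm_add_right,
    sympForm_smul_left, hv, hw, perp_symm hw, sympForm_self]
  module

theorem hh_comm (h : sympForm m F u v = 0) : hh u v = hh v u := sp_ext fun x => by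
  rw [hh_smul h, hh_smul (perp_symm h), add_right_comm]

theorem spT_add_eq (h : sympForm m F u v = 0) (c : F) : spT (u + v) c = spT u c * spT v c * hh u (c • v) := by
  have h' : sympForm m F u (c • v) = 0 := by rw [sympForm_smul_right, h, mul_zero]
  refine sp_ext fun x => ?_
  simp only [mul_smul, hh_smul h', spT_smul, sympForm_add_left, sympForm_add_right, sympForm_smul_left,
    sympForm_smul_right, h, perp_symm h, sympForm_self]
  module

theorem spT_sub_eq (h : sympForm m F u v = 0) (c : F) : spT (u - v) c = spT u c * spT v c * hh u ((-c) • v) := by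
  have h' : sympForm m F u ((-c) • v) = 0 := by rw [sympForm_smul_right, h, mul_zero]
  refine sp_ext fun x => ?_
  simp only [mul_smul, hh_smul h', spT_smul, sympForm_add_left, sympForm_sub_right, sympForm_smul_left,
    sympForm_smul_right, h, perp_symm h, sympForm_self]
  module

theorem mul_hh (g : symplecticGroup (Fin m) F) (u v : Fin m ⊕ Fin m → F) : g * hh u v = hh (g • u) (g • v) * g := by
  simp only [hh, ← mul_assoc, mul_spT g, smul_add]
  simp only [mul_assoc, mul_spT g]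

theorem spT_fix (h : sympForm m F u v = 0) (c : F) : spT v c • u = u := by simp [spT_smul, h]

theorem hh_fix (hv : sympForm m F u v = 0) (h1 : sympForm m F w u = 0) (h2 : sympForm m F w v = 0) : hh u v • w = w := by
  simp [hh_smul hv, h1, h2]

theorem exists_lag (hm : 1 ≤ m) (h : sympForm m F u v = 0) : ∃ g : symplecticGroup (Fin m) F,
    (∀ i, (g • u) (.inr i) = 0) ∧ ∀ i, (g • v) (.inr i) = 0 := by
  have key : ∀ u v : Fin m ⊕ Fin m → F, (∀ i, u (.inr i) = 0) → sympForm m F u v = 0 → ∃ g : symplecticGroup (Fin m) F,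
      (∀ i, (g • u) (.inr i) = 0) ∧ ∀ i, (g • v) (.inr i) = 0 := fun u v hu h => by
    by_cases hv : ∀ i, v (.inr i) = 0
    · exact ⟨1, by simpa using hu, by simpa using hv⟩
    push Not at hv
    obtain ⟨i, hi⟩ := hv
    refine ⟨spT (Pi.single (.inl i) 1 - v) (sympForm m F v (Pi.single (.inl i) 1))⁻¹, ?_, ?_⟩
    · rwa [spT_fix (by rw [sympForm_sub_right, sympForm_single_inl, hu, h, sub_zero])]
    · rw [spT_smul_eq (by rwa [sympForm_single_inl])]
      simp
  obtain ⟨g, hg, -⟩ := key 0 u (fun _ => rfl) (sympForm_zero_left _) |>.imp fun g hg => And.intro hg.2 trivial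
  obtain ⟨g', h1, h2⟩ := key (g • u) (g • v) hg (by rw [sympForm_smul_smul, h])
  exact ⟨g' * g, by simpa [mul_smul] using h1, by simpa [mul_smul] using h2⟩

theorem spT_eq_sU (hu : ∀ i, u (.inr i) = 0) (c : F) : spT u c = sU m F (c • ⟨_, vv_mem (u ∘ .inl)⟩) := by
  refine Subtype.ext ?_
  ext i j
  rcases i with i | i <;> rcases j with j | j <;>
    simp [spT, sympTransvection, sU, spUni, J, vecMulVec_apply, hu, one_apply, mulVec, dotProduct]

theorem sU_fix (hu : ∀ i, u (.inr i) = 0) (S : symM (Fin m) F) : sU m F S • u = u := by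
  rw [sp_smul_def]
  ext i
  rcases i with i | i <;> simp [sU, spUni, hu, one_apply, mulVec, dotProduct]

end Grp

section Ind
variable {G : Type*} [Group G] {V : Type*} [AddCommGroup V] [Module ℂ V]
  {F : Type*} [Field F] [Fintype F] {M : Type*} [AddCommGroup M] [Module F M] {ρ : G →* End ℂ V} {ψ : AddChar F ℂ}

theorem wt_ind [Finite M] {u : M → G} (hψ : ψ ≠ 1) (hadd : ∀ a b, u (a + b) = u a * u b) {S S' : Submodule ℂ V}
    (hS : ∀ a, ∀ x ∈ S, ρ (u a) x ∈ S) (h : ∀ L : Dual F M, ∀ x ∈ S, x ∈ wt ρ ψ u L → x ∈ S') : S ≤ S' := by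
  classical
  have := Fintype.ofFinite M
  have := finite_dual (F := F) (M := M)
  have := Fintype.ofFinite (Dual F M)
  have h0 : u 0 = 1 := by simpa using hadd 0 0
  have key : ∀ (v : V) (L : Dual F M), ∑ b, ψ (-L b) • ρ (u b) v ∈ wt ρ ψ u L := by
    intro v L c
    rw [map_sum, Finset.smul_sum, ← Equiv.sum_comp (Equiv.addLeft c) fun b => ψ (L c) • ψ (-L b) • ρ (u b) v]
    refine Finset.sum_congr rfl fun b _ => ?_
    rw [map_smul, ← Module.End.mul_apply, ← map_mul, ← hadd, smul_smul, ← AddChar.map_add_eq_mul]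
    simp
  intro v hv
  have h2 : ∑ L : Dual F M, ∑ b, ψ (-L b) • ρ (u b) v = (Fintype.card (Dual F M) : ℂ) • v := by
    rw [Finset.sum_comm, Finset.sum_eq_single 0 (fun b _ hb => ?_) (by simp)]
    · simp [h0, Nat.cast_smul_eq_nsmul]
    · rw [← Finset.sum_smul]
      have : ∑ L : Dual F M, ψ (-L b) = 0 := by
        refine AddChar.sum_eq_zero_of_ne_one (ψ := ψ.compAddMonoidHom (-Dual.eval F M b).toAddMonoidHom) fun e => ?_
        obtain ⟨L, hL⟩ := Module.Projective.exists_dual_ne_zero F hb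
        refine hL (neg_eq_zero.1 (eq_of_psi hψ fun c => ?_))
        simpa using DFunLike.congr_fun e (c • L)
      rw [this, zero_smul]
  refine (S'.smul_mem_iff (s := (Fintype.card (Dual F M) : ℂ)) (Nat.cast_ne_zero.2 Fintype.card_ne_zero)).1 ?_
  rw [← h2]
  exact S'.sum_mem fun L _ => h L _ (S.sum_mem fun b _ => S.smul_mem _ (hS b v hv)) (key v L)

/-- The eigenspace of a one-parameter family. -/
def eg (ρ : G →* End ℂ V) (ψ : AddChar F ℂ) (T : F → G) (b : F) : Submodule ℂ V where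
  carrier := {v | ∀ c, ρ (T c) v = ψ (c * b) • v}
  zero_mem' := by simp
  add_mem' {v w} hv hw b := by rw [map_add, hv, hw, smul_add]
  smul_mem' c v hv b := by rw [map_smul, hv, smul_comm]

omit [Fintype F] in
theorem eg_map {T T' : F → G} {g : G} (h : ∀ c, g * T c = T' c * g) {b : F} {x : V} (hx : x ∈ eg ρ ψ T b) :
    ρ g x ∈ eg ρ ψ T' b := fun c => by
  rw [← End.mul_apply, ← map_mul, ← h, map_mul, End.mul_apply, hx, map_smul]

theorem eg_ind {T : F → G} (hψ : ψ ≠ 1) (hadd : ∀ a b, T (a + b) = T a * T b) {S S' : Submodule ℂ V}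
    (hS : ∀ a, ∀ x ∈ S, ρ (T a) x ∈ S) (h : ∀ b, ∀ x ∈ S, x ∈ eg ρ ψ T b → x ∈ S') : S ≤ S' :=
  wt_ind (F := F) hψ hadd hS fun L x hx hL => h (L 1) x hx fun c => by
    rw [hL, ← smul_eq_mul c, ← L.map_smul, smul_eq_mul, mul_one]

end Ind

variable {m : ℕ} {F : Type*} [Field F] [Fintype F] {V : Type*} [AddCommGroup V] [Module ℂ V]
  {ρ : symplecticGroup (Fin m) F →* End ℂ V} {ψ : AddChar F ℂ} {u v w : Fin m ⊕ Fin m → F}

/-- All weights of the Siegel radicals have rank at most one. -/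
def Rk1 (ρ : symplecticGroup (Fin m) F →* End ℂ V) (ψ : AddChar F ℂ) : Prop :=
  ∀ u v α β γ x, sympForm m F u v = 0 → x ≠ 0 → x ∈ eg ρ ψ (spT u) α → x ∈ eg ρ ψ (spT v) γ →
    x ∈ eg ρ ψ (fun c => hh u (c • v)) β → β ^ 2 = 4 * α * γ

theorem rk1_of_lt [FiniteDimensional ℂ V] (hodd : Fintype.card F % 2 = 1) (h2 : (2 : F) ≠ 0) (hm : 2 ≤ m) (hψ : ψ ≠ 1)
    (hlt : 2 * (Fintype.card F + 1) * finrank ℂ V <
      (Fintype.card F ^ m - 1) * (Fintype.card F ^ m - Fintype.card F)) : Rk1 ρ ψ := by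
  classical
  intro u v α β γ x h hx h1 h3 h4
  obtain ⟨g, hu, hv⟩ := exists_lag (by omega) h
  have hc : ∀ (S : symM (Fin m) F) (y : Fin m ⊕ Fin m → F), (∀ i, y (.inr i) = 0) → ∀ c,
      sU m F S * spT y c = spT y c * sU m F S := fun S y hy c => by rw [mul_spT, sU_fix hy]
  have hcv : ∀ (c : F) i, (c • g • v) (.inr i) = 0 := fun c i => by simp [hv]
  have hle := wt_ind (F := F) (ρ := ρ) (u := sU m F) hψ (fun S T => uni_add _ _ _ _ _)
    (S := eg ρ ψ (spT (g • u)) α ⊓ eg ρ ψ (spT (g • v)) γ ⊓ eg ρ ψ (fun c => hh (g • u) (c • g • v)) β) (S' := ⊥)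
    (fun S y hy => ⟨⟨eg_map (hc S _ hu) hy.1.1, eg_map (hc S _ hv) hy.1.2⟩, eg_map (fun c => by
      rw [mul_hh, sU_fix hu, sU_fix (hcv c)]) hy.2⟩)
  by_contra hne
  refine hx (rho_injective (ρ := ρ) g ((hle (fun L y hy hL => ?_) ⟨⟨eg_map (mul_spT g u) h1, eg_map (mul_spT g v) h3⟩,
    eg_map (fun c => by rw [mul_hh, sp_smul_smul]) h4⟩).trans (map_zero _).symm))
  by_contra hy0
  have hL' : ∀ z : Fin m ⊕ Fin m → F, (∀ i, z (.inr i) = 0) → ∀ c, ρ (spT z c) y = ψ (c * qf L (z ∘ .inl)) • y :=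
    fun z hz c => by rw [spT_eq_sU hz, hL, L.map_smul, qf_apply, smul_eq_mul]
  have e1 : α = qf L ((g • u) ∘ .inl) := eq_of_psi hψ fun c =>
    smul_left_injective ℂ hy0 ((hy.1.1 c).symm.trans (hL' _ hu c))
  have e2 : γ = qf L ((g • v) ∘ .inl) := eq_of_psi hψ fun c =>
    smul_left_injective ℂ hy0 ((hy.1.2 c).symm.trans (hL' _ hv c))
  have e3 : β = polar (qf L) ((g • u) ∘ .inl) ((g • v) ∘ .inl) := eq_of_psi hψ fun c =>
    smul_left_injective ℂ hy0 ((hy.2 c).symm.trans (by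
      simp only [hh, map_mul, End.mul_apply]
      rw [hL' _ (hcv c), map_smul, hL' _ hu, map_smul, map_smul, hL' _ (fun i => by simp [hu, hv]), smul_smul, smul_smul,
        ← AddChar.map_add_eq_mul, ← AddChar.map_add_eq_mul, ← smul_eq_mul c, ← polar_smul_right, polar]
      congr 2
      simp only [Pi.add_comp, Pi.smul_comp]
      ring))
  refine absurd (sp_odd_bound hodd h2 hm hψ (ρ := ρ) (L₀ := L) ((Submodule.ne_bot_iff _).2 ⟨y, hL, hy0⟩)
    (e₀ := (g • u) ∘ .inl) (f₀ := (g • v) ∘ .inl) (by rwa [← e1, ← e2, ← e3])) hlt.not_ge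

theorem ind1 (hψ : ψ ≠ 1) (u : Fin m ⊕ Fin m → F) {S' : Submodule ℂ V} (h : ∀ b, eg ρ ψ (spT u) b ≤ S') (x : V) :
    x ∈ S' :=
  eg_ind (S := ⊤) hψ (spT_add u) (fun _ _ _ => trivial) (fun b _ _ hx => h b hx) trivial

theorem ind2 (hψ : ψ ≠ 1) (hR : Rk1 ρ ψ) (h : sympForm m F u v = 0) {S' : Submodule ℂ V} {α : F}
    (hS : ∀ β γ x, β ^ 2 = 4 * α * γ → x ∈ eg ρ ψ (spT u) α → x ∈ eg ρ ψ (spT v) γ →
      x ∈ eg ρ ψ (fun c => hh u (c • v)) β → x ∈ S') : eg ρ ψ (spT u) α ≤ S' := by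
  have hc : ∀ c : F, sympForm m F u (c • v) = 0 := fun c => by rw [sympForm_smul_right, h, mul_zero]
  refine eg_ind hψ (spT_add v) (fun a x hx => eg_map (fun c => by rw [mul_spT, spT_fix h]) hx) fun γ x h1 h2 => ?_
  refine eg_ind (T := fun c => hh u (c • v)) (S := eg ρ ψ (spT u) α ⊓ eg ρ ψ (spT v) γ) hψ (fun a b => ?_)
    (fun a x hx => ⟨eg_map (fun c => ?_) hx.1, eg_map (fun c => ?_) hx.2⟩) (fun β y hy h3 => ?_) ⟨h1, h2⟩
  · rw [hh_mul (hc a) (hc b), add_smul]
    simp [sympForm_smul_left, sympForm_smul_right, sympForm_self, spT_zero]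
  · rw [mul_spT, hh_fix (hc a) (sympForm_self u) (hc a)]
  · rw [mul_spT, hh_fix (hc a) (perp_symm h) (by simp [sympForm_smul_right, sympForm_self])]
  · by_cases h0 : y = 0
    · exact h0 ▸ S'.zero_mem
    · exact hS β γ y (hR u v α β γ y h h0 hy.1 hy.2 h3) hy.1 hy.2 h3

end Cfsg.Agent.WeilGap
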