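import Cfsg.Agent.WeilGap.B

/-!
Representations of `Sp_{2m}(q)` with the property `Rk1` (helper7): fixed vectors (`fix_all`), spanning by eigenvectors of
long root subgroups (`span_eg`), and the dichotomy of types (`ty_or`).
-/

set_option autoImplicit false

namespace Cfsg.Agent.WeilGap

open Module Matrix Cfsg.Agent.Classical Cfsg.Agent.Deg Finset

variable {m : ℕ} {F : Type*} [Field F] [Fintype F] {V : Type*} [AddCommGroup V] [Module ℂ V]
  {ρ : symplecticGroup (Fin m) F →* End ℂ V} {ψ : AddChar F ℂ} {u v w : Fin m ⊕ Fin m → F}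

omit [Fintype F] in
theorem eg_zero {x : V} : x ∈ eg ρ ψ (spT u) 0 ↔ ∀ c, ρ (spT u c) x = x := by
  refine forall_congr' fun c => ?_
  simp

theorem fix0 (hψ : ψ ≠ 1) (hR : Rk1 ρ ψ) (h : sympForm m F u v = 0) {x : V} (hx : x ∈ eg ρ ψ (spT u) 0) :
    ρ (hh u v) x = x :=
  ind2 hψ hR h (S' := LinearMap.eqLocus (ρ (hh u v)) LinearMap.id) (fun β γ y h0 _ _ h3 => by
    have hβ : β = 0 := by simpa using h0
    simpa [hβ] using h3 1) hx

omit [Fintype F] in
theorem exists_hyp (hm : 2 ≤ m) (h : sympForm m F v w ≠ 0) : ∃ a b, sympForm m F b a = 1 ∧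
    (sympForm m F a v = 0 ∧ sympForm m F a w = 0) ∧ sympForm m F b v = 0 ∧ sympForm m F b w = 0 := by
  let i : Fin m := ⟨0, by omega⟩
  let j : Fin m := ⟨1, by omega⟩
  have hij : i ≠ j := by simp [i, j]
  obtain ⟨g, -, h1, h2⟩ := spNondeg_top.exists_smul_pair_eq (u := Pi.single (.inr i) 1) (v := Pi.single (.inl i) 1)
    (u' := v) (v' := (sympForm m F v w)⁻¹ • w) trivial trivial trivial trivial (by simp [sympForm_single_inl])
    (by rw [sympForm_smul_right, inv_mul_cancel₀ h])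
  have h3 : w = sympForm m F v w • g • Pi.single (.inl i) 1 := by rw [h2, smul_smul, mul_inv_cancel₀ h, one_smul]
  refine ⟨g • Pi.single (.inl j) 1, g • Pi.single (.inr j) 1, by simp [sympForm_smul_smul, sympForm_single_inl],
    ⟨?_, ?_⟩, ?_, ?_⟩
  · rw [← h1, sympForm_smul_smul, sympForm_single_inr]; simp [hij]
  · rw [h3, sympForm_smul_right, sympForm_smul_smul, sympForm_single_inl]; simp
  · rw [← h1, sympForm_smul_smul, sympForm_single_inr]; simp
  · rw [h3, sympForm_smul_right, sympForm_smul_smul, sympForm_single_inl]; simp [hij]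

omit [Fintype F] in
theorem fix_of_spT {x : V} (h : ∀ z c, ρ (spT z c) x = x) (g : symplecticGroup (Fin m) F) : ρ g x = x := by
  have hg : g ∈ spTGroup (⊤ : Submodule F (Fin m ⊕ Fin m → F)) := by rw [spTGroup_top]; trivial
  induction hg using Subgroup.closure_induction with
  | mem g hg => obtain ⟨z, -, c, rfl⟩ := hg; exact h z c
  | one => simp
  | mul a b _ _ ha hb => rw [map_mul, End.mul_apply, hb, ha]
  | inv a _ ha => exact rho_injective a (by rw [← End.mul_apply, ← map_mul, mul_inv_cancel, map_one, ha]; rfl)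

theorem fix_all (hψ : ψ ≠ 1) (hR : Rk1 ρ ψ) (hm : 2 ≤ m) (h : sympForm m F v w ≠ 0) {x : V}
    (hx : ∀ u, sympForm m F u v = 0 → sympForm m F u w = 0 → x ∈ eg ρ ψ (spT u) 0) (g : symplecticGroup (Fin m) F) :
    ρ g x = x := by
  obtain ⟨a, b, hab, ha, hb⟩ := exists_hyp hm h
  refine fix_of_spT (fun z c => ?_) g
  let y := (sympForm m F z w / sympForm m F v w) • v - (sympForm m F z v / sympForm m F v w) • w
  have hy : ∀ u, sympForm m F u v = 0 → sympForm m F u w = 0 → sympForm m F u y = 0 := fun u h1 h2 => by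
    simp [y, sympForm_sub_right, sympForm_smul_right, h1, h2]
  have hfix : ∀ u, sympForm m F u v = 0 → sympForm m F u w = 0 → ρ (hh y u) x = x := fun u h1 h2 => by
    rw [← hh_comm (hy u h1 h2)]
    exact fix0 hψ hR (hy u h1 h2) (hx u h1 h2)
  have h1 : sympForm m F (z - y) v = 0 := by
    simp only [y, sympForm_sub_left, sympForm_smul_left, sympForm_self, sympForm_swap w v]
    field_simp
    ring
  have h2 : sympForm m F (z - y) w = 0 := by
    simp only [y, sympForm_sub_left, sympForm_smul_left, sympForm_self]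
    field_simp
    ring
  have hb' : sympForm m F (c • b) v = 0 ∧ sympForm m F (c • b) w = 0 := by simp [sympForm_smul_left, hb]
  have hab' : sympForm m F (a + c • b) v = 0 ∧ sympForm m F (a + c • b) w = 0 := by simp [sympForm_add_left, ha, hb']
  have h3 : ρ (spT y c) x = x := by
    have e := hh_mul (perp_symm (hy a ha.1 ha.2)) (perp_symm (hy _ hb'.1 hb'.2))
    have hp := perp_symm (hy _ hab'.1 hab'.2)
    rw [mul_spT, hh_fix hp (sympForm_self y) hp, sympForm_smul_left, hab, mul_one] at e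
    have := congrArg (fun g => ρ g x) e
    simpa only [map_mul, End.mul_apply, hfix _ ha.1 ha.2, hfix _ hb'.1 hb'.2, hfix _ hab'.1 hab'.2, eq_comm] using this
  rw [← sub_add_cancel z y, spT_add_eq (hy _ h1 h2), map_mul, map_mul, End.mul_apply, End.mul_apply,
    fix0 hψ hR (by rw [sympForm_smul_right, hy _ h1 h2, mul_zero]) (hx _ h1 h2), h3, eg_zero.1 (hx _ h1 h2)]

theorem span_eg (hψ : ψ ≠ 1) (hR : Rk1 ρ ψ) (hm : 2 ≤ m) (hV : ∀ x, (∀ g, ρ g x = x) → x = 0)
    (h : sympForm m F v w ≠ 0) {S : Submodule ℂ V}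
    (hS : ∀ u b, sympForm m F u v = 0 → sympForm m F u w = 0 → b ≠ 0 → eg ρ ψ (spT u) b ≤ S) (x : V) : x ∈ S := by
  classical
  let U : Submodule F (Fin m ⊕ Fin m → F) :=
    { carrier := {u | sympForm m F u v = 0 ∧ sympForm m F u w = 0}
      zero_mem' := ⟨sympForm_zero_left _, sympForm_zero_left _⟩
      add_mem' := fun ha hb => by simp [sympForm_add_left, ha.1, ha.2, hb.1, hb.2]
      smul_mem' := fun c a ha => by simp [sympForm_smul_left, ha.1, ha.2] }
  have h1 : ∀ g ∈ spTGroup U, ∀ x, ρ g x - x ∈ S := fun g hg => by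
    induction hg using Subgroup.closure_induction with
    | mem g hg =>
      obtain ⟨z, hz, c, rfl⟩ := hg
      refine ind1 (ρ := ρ) hψ z (S' := S.comap (ρ (spT z c) - 1)) fun b y hy => ?_
      change ρ (spT z c) y - y ∈ S
      by_cases hb : b = 0
      · rw [eg_zero.1 (hb ▸ hy), sub_self]
        exact S.zero_mem
      · rw [hy]
        exact S.sub_mem (S.smul_mem _ (hS z b hz.1 hz.2 hb hy)) (hS z b hz.1 hz.2 hb hy)
    | one => simp
    | mul a b _ _ ha hb =>
      intro x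
      simpa using S.add_mem (ha (ρ b x)) (hb x)
    | inv a _ ha =>
      intro x
      have := S.neg_mem (ha (ρ a⁻¹ x))
      rwa [← End.mul_apply, ← map_mul, mul_inv_cancel, map_one, neg_sub] at this
  have := Fintype.ofFinite (spTGroup U)
  have h2 : ∑ g : spTGroup U, ρ g x = 0 := hV _ (fix_all hψ hR hm h fun u h1 h2 => eg_zero.2 fun c => by
    rw [map_sum, ← Equiv.sum_comp (Equiv.mulLeft (⟨_, spT_mem_spTGroup (U := U) ⟨h1, h2⟩ c⟩ : spTGroup U))
      fun g : spTGroup U => ρ g x]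
    simp)
  have h3 := S.neg_mem (S.sum_mem (t := univ) fun (g : spTGroup U) _ => h1 g g.2 x)
  rw [sum_sub_distrib, h2, zero_sub, neg_neg, sum_const, ← Nat.cast_smul_eq_nsmul ℂ] at h3
  exact (S.smul_mem_iff (Nat.cast_ne_zero.2 (by simp))).1 h3

/-- `q` times the projection onto an eigenspace of a long root subgroup. -/
noncomputable def pj (ρ : symplecticGroup (Fin m) F →* End ℂ V) (ψ : AddChar F ℂ) (u : Fin m ⊕ Fin m → F) (b : F) :
    End ℂ V := ∑ c, ψ (-(c * b)) • ρ (spT u c)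

theorem sum_psi [DecidableEq F] (hψ : ψ ≠ 1) (a b : F) :
    ∑ c, ψ (-(c * b)) * ψ (c * a) = if a = b then (Fintype.card F : ℂ) else 0 := by
  simp_rw [← AddChar.map_add_eq_mul, neg_add_eq_sub, ← mul_sub]
  rw [AddChar.sum_mulShift _ (AddChar.IsPrimitive.of_ne_one hψ)]
  simp [sub_eq_zero]

theorem pj_apply [DecidableEq F] (hψ : ψ ≠ 1) {a : F} {x : V} (hx : x ∈ eg ρ ψ (spT u) a) (b : F) :
    pj ρ ψ u b x = (if a = b then (Fintype.card F : ℂ) else 0) • x := by
  rw [← sum_psi hψ, sum_smul, pj, LinearMap.sum_apply]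
  exact sum_congr rfl fun c _ => by rw [LinearMap.smul_apply, hx, smul_smul]

theorem pj_mem (h : sympForm m F u v = 0) {a : F} {x : V} (hx : x ∈ eg ρ ψ (spT u) a) (b : F) :
    pj ρ ψ v b x ∈ eg ρ ψ (spT u) a := by
  rw [pj, LinearMap.sum_apply]
  exact Submodule.sum_mem _ fun c _ => Submodule.smul_mem _ _ (eg_map (fun d => by rw [mul_spT, spT_fix h]) hx)

theorem pj_perp (h2 : (2 : F) ≠ 0) (hψ : ψ ≠ 1) (hR : Rk1 ρ ψ) (h : sympForm m F u v = 0) {a b : F}
    (hab : ¬ IsSquare (a * b)) : eg ρ ψ (spT u) a ≤ LinearMap.ker (pj ρ ψ v b) := by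
  classical
  refine ind2 hψ hR h fun β γ x h0 _ h1 _ => ?_
  rw [LinearMap.mem_ker, pj_apply hψ h1, if_neg, zero_smul]
  rintro rfl
  exact hab ⟨β / 2, by field_simp; linear_combination -h0⟩

theorem pj_kill (h2 : (2 : F) ≠ 0) (hψ : ψ ≠ 1) (hR : Rk1 ρ ψ) (hm : 2 ≤ m) (hV : ∀ x, (∀ g, ρ g x = x) → x = 0)
    (u v : Fin m ⊕ Fin m → F) {a b : F} (hab : ¬ IsSquare (a * b)) : eg ρ ψ (spT u) a ≤ LinearMap.ker (pj ρ ψ v b) := by
  classical
  by_cases h : sympForm m F u v = 0
  · exact pj_perp h2 hψ hR h hab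
  intro x hx
  have := span_eg hψ hR hm hV h (S := LinearMap.ker (pj ρ ψ v b * pj ρ ψ u a)) (fun y c h1 h3 hc z hz => by
    rw [LinearMap.mem_ker, End.mul_apply]
    by_cases h4 : IsSquare (c * a)
    · refine pj_perp h2 hψ hR h3 (fun h5 => hab ?_) (pj_mem h1 hz a)
      obtain ⟨r, hr⟩ := h4.mul h5
      exact ⟨r / c, by field_simp; linear_combination hr⟩
    · rw [pj_perp h2 hψ hR h1 h4 hz, map_zero]) x
  rw [LinearMap.mem_ker, End.mul_apply, pj_apply hψ hx, if_pos rfl, map_smul] at this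
  exact (smul_eq_zero.1 this).resolve_left (Nat.cast_ne_zero.2 Fintype.card_ne_zero)

/-- The long root subgroups have only squares as weights. -/
def Ty (ρ : symplecticGroup (Fin m) F →* End ℂ V) (ψ : AddChar F ℂ) : Prop :=
  ∀ u b, ¬ IsSquare b → eg ρ ψ (spT u) b = ⊥

omit [Fintype F] in
theorem eg_mulShift {G : Type*} [Group G] {ρ : G →* End ℂ V} (T : F → G) (d b : F) :
    eg ρ (ψ.mulShift d) T b = eg ρ ψ T (d * b) := by
  ext x
  refine forall_congr' fun c => ?_
  rw [AddChar.mulShift_apply, mul_left_comm]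

theorem isSquare_mul_of_not {a b : F} (ha : ¬ IsSquare a) (hb : ¬ IsSquare b) : IsSquare (a * b) := by
  classical
  have h0 : a * b ≠ 0 := mul_ne_zero (by rintro rfl; exact ha IsSquare.zero) (by rintro rfl; exact hb IsSquare.zero)
  rw [← quadraticChar_one_iff_isSquare h0, map_mul, quadraticChar_neg_one_iff_not_isSquare.2 ha,
    quadraticChar_neg_one_iff_not_isSquare.2 hb]
  norm_num

theorem ty_or (h2 : (2 : F) ≠ 0) (hψ : ψ ≠ 1) (hR : Rk1 ρ ψ) (hm : 2 ≤ m) (hV : ∀ x, (∀ g, ρ g x = x) → x = 0)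
    (hirr : ∀ U : Submodule ℂ V, (∀ g, ∀ x ∈ U, ρ g x ∈ U) → U = ⊥ ∨ U = ⊤) {δ : F} (hδ : ¬ IsSquare δ) :
    Ty ρ ψ ∨ Ty ρ (ψ.mulShift δ) := by
  classical
  by_cases h : Ty ρ ψ
  · exact .inl h
  refine .inr fun v b hb => ?_
  simp only [Ty, not_forall] at h
  obtain ⟨u, a, ha, h⟩ := h
  have hab : ¬ IsSquare (a * (δ * b)) := fun h1 => ha (by
    obtain ⟨r, hr⟩ := h1
    obtain ⟨s, hs⟩ := isSquare_mul_of_not hδ hb
    have hs0 : s ≠ 0 := by
      rintro rfl
      rcases mul_eq_zero.1 (hs.trans (mul_zero _)) with h | h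
      exacts [hδ (h ▸ IsSquare.zero), hb (h ▸ IsSquare.zero)]
    exact ⟨r / s, by field_simp; linear_combination hr - a * hs⟩)
  have h1 : ⨆ u, eg ρ ψ (spT u) a = ⊤ := (hirr _ fun g x hx => by
    refine (iSup_le (a := (⨆ u, eg ρ ψ (spT u) a).comap (ρ g)) fun u y hy => ?_) hx
    exact Submodule.mem_iSup_of_mem (g • u) (eg_map (mul_spT g u) hy)).resolve_left fun h0 =>
      h (eq_bot_iff.2 (h0 ▸ le_iSup (fun u => eg ρ ψ (spT u) a) u))
  have h3 : ⊤ ≤ LinearMap.ker (pj ρ ψ v (δ * b)) := h1 ▸ iSup_le fun u => pj_kill h2 hψ hR hm hV u v hab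
  rw [eg_mulShift, eq_bot_iff]
  intro x hx
  have := h3 (Submodule.mem_top (x := x))
  rw [LinearMap.mem_ker, pj_apply hψ hx, if_pos rfl] at this
  exact (smul_eq_zero.1 this).resolve_left (Nat.cast_ne_zero.2 Fintype.card_ne_zero)

end Cfsg.Agent.WeilGap
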