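import Cfsg.Agent.WeilGap.C
import Cfsg.Agent.Char.Orth

/-!
Representations of `Sp_{2m}(q)` of rank one and given type (helper7): the operators `EE` (playing the role of
`h(v) + h(-v)` in the Weil representation), their multiplication rule `EE_mul`, and `card_le_two`: there are at most two
irreducible characters of each type.
-/

set_option autoImplicit false

namespace Cfsg.Agent.WeilGap

open Module Matrix Cfsg.Agent.Classical Cfsg.Agent.Deg Finset

variable {m : ℕ} {F : Type*} [Field F] [Fintype F] {V : Type*} [AddCommGroup V] [Module ℂ V]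
  {ρ : symplecticGroup (Fin m) F →* End ℂ V} {ψ : AddChar F ℂ} {u v w : Fin m ⊕ Fin m → F}

theorem exists_fourier (hψ : ψ ≠ 1) (φ : F → ℂ) : ∃ k : F → ℂ, ∀ b, ∑ c, k c * ψ (c * b) = φ b := by
  classical
  refine ⟨fun c => (Fintype.card F : ℂ)⁻¹ * ∑ a, φ a * ψ (-(c * a)), fun b => ?_⟩
  simp_rw [mul_assoc, ← mul_sum, sum_mul, mul_assoc]
  rw [sum_comm]
  simp_rw [← mul_sum, sum_psi hψ]
  simp [mul_comm (φ b)]

/-- The even function `ψ(2a) + ψ(-2a)`. -/
def ev (ψ : AddChar F ℂ) (a : F) : ℂ := ψ (2 * a) + ψ (-(2 * a))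

omit [Fintype F] in
theorem ev_neg (a : F) : ev ψ (-a) = ev ψ a := by simp [ev, add_comm]

omit [Fintype F] in
theorem ev_mul (a b : F) : ev ψ a * ev ψ b = ev ψ (a + b) + ev ψ (a - b) := by
  simp only [ev, mul_add, add_mul, mul_sub, sub_eq_add_neg, neg_add, neg_neg, mul_neg, AddChar.map_add_eq_mul]
  ring

theorem exists_coef (hψ : ψ ≠ 1) : ∃ γ : F → ℂ, ∀ a, ∑ c, γ c * ψ (c * a ^ 2) = ev ψ a := by
  classical
  obtain ⟨γ, h⟩ := exists_fourier hψ fun b => if h : ∃ a, a ^ 2 = b then ev ψ h.choose else 0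
  refine ⟨γ, fun a => ?_⟩
  have h1 : ∃ x, x ^ 2 = a ^ 2 := ⟨a, rfl⟩
  rw [h, dif_pos h1]
  rcases sq_eq_sq_iff_eq_or_eq_neg.1 h1.choose_spec with e | e <;> rw [e]
  exact ev_neg a

theorem exists_coef' (h2 : (2 : F) ≠ 0) (hψ : ψ ≠ 1) (c : F) :
    ∃ k : F → ℂ, ∀ a, ∑ s, k s * ev ψ (s * a) = ψ (c * a ^ 2) := by
  obtain ⟨k, h⟩ := exists_fourier hψ fun b => 2⁻¹ * ψ (c * (b / 2) ^ 2)
  refine ⟨k, fun a => ?_⟩
  have h1 := h (2 * a)
  have h3 := h (-(2 * a))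
  rw [show (2 * a / 2) ^ 2 = a ^ 2 by field_simp] at h1
  rw [show (-(2 * a) / 2) ^ 2 = a ^ 2 by field_simp] at h3
  simp only [ev, mul_add, sum_add_distrib, mul_left_comm (2 : F), ← mul_neg _ (2 * a), h1, h3]
  ring

/-- The operators `E_v`. -/
def EE {A : Type*} [Ring A] [Algebra ℂ A] (γ : F → ℂ) (ρ : symplecticGroup (Fin m) F →* A)
    (v : Fin m ⊕ Fin m → F) : A := ∑ c, γ c • ρ (spT v c)

variable {γ : F → ℂ}

theorem EE_apply (hγ : ∀ a, ∑ c, γ c * ψ (c * a ^ 2) = ev ψ a) {a : F} {x : V} (hx : x ∈ eg ρ ψ (spT v) (a ^ 2)) :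
    EE γ ρ v x = ev ψ a • x := by
  rw [← hγ, sum_smul, EE, LinearMap.sum_apply]
  exact sum_congr rfl fun c _ => by rw [LinearMap.smul_apply, hx, smul_smul]

theorem EE_mem (h : sympForm m F u v = 0) {a : F} {x : V} (hx : x ∈ eg ρ ψ (spT u) a) :
    EE γ ρ v x ∈ eg ρ ψ (spT u) a := by
  rw [EE, LinearMap.sum_apply]
  exact Submodule.sum_mem _ fun c _ => Submodule.smul_mem _ _ (eg_map (fun d => by rw [mul_spT, spT_fix h]) hx)

theorem Ty.le (hT : Ty ρ ψ) {S : Submodule ℂ V} {b : F} (h : ∀ a, b = a ^ 2 → eg ρ ψ (spT u) (a ^ 2) ≤ S) :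
    eg ρ ψ (spT u) b ≤ S := by
  by_cases hb : IsSquare b
  · obtain ⟨a, ha⟩ := hb
    rw [← sq] at ha
    exact ha ▸ h a ha
  · rw [hT u b hb]
    exact bot_le

theorem ind3 (hψ : ψ ≠ 1) (hR : Rk1 ρ ψ) (hT : Ty ρ ψ) (h : sympForm m F u v = 0) {S : Submodule ℂ V} {a : F}
    (hS : ∀ b x, x ∈ eg ρ ψ (spT u) (a ^ 2) → x ∈ eg ρ ψ (spT v) (b ^ 2) →
      x ∈ eg ρ ψ (fun c => hh u (c • v)) (2 * a * b) → x ∈ S) : eg ρ ψ (spT u) (a ^ 2) ≤ S := by
  refine ind2 hψ hR h fun β γ x h0 h1 h2 h3 => ?_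
  by_cases hγ : IsSquare γ
  · obtain ⟨b, rfl⟩ := hγ
    rcases sq_eq_sq_iff_eq_or_eq_neg.1 (show β ^ 2 = (2 * a * b) ^ 2 by rw [h0]; ring) with e | e
    · exact hS b x h1 (by rwa [sq]) (e ▸ h3)
    · exact hS (-b) x h1 (by rwa [neg_sq, sq]) (by rwa [mul_neg, ← e])
  · rw [hT v γ hγ, Submodule.mem_bot] at h2
    exact h2 ▸ S.zero_mem

theorem EE_heis (hγ : ∀ a, ∑ c, γ c * ψ (c * a ^ 2) = ev ψ a) (hψ : ψ ≠ 1) (hR : Rk1 ρ ψ) (hT : Ty ρ ψ)
    (h : sympForm m F u v = 0) {a : F} (ha : a ≠ 0) {x : V} (hx : x ∈ eg ρ ψ (spT u) (a ^ 2)) :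
    EE γ ρ v x = ρ (hh u (a⁻¹ • v)) x + ρ (hh u ((-a⁻¹) • v)) x :=
  ind3 hψ hR hT h (S := LinearMap.eqLocus (EE γ ρ v) (ρ (hh u (a⁻¹ • v)) + ρ (hh u ((-a⁻¹) • v))))
    (fun b y _ h2 h3 => by
      rw [LinearMap.mem_eqLocus, LinearMap.add_apply, EE_apply hγ h2, h3, h3, ← add_smul, ev]
      congr 3 <;> field_simp) hx

theorem EE_mul (hγ : ∀ a, ∑ c, γ c * ψ (c * a ^ 2) = ev ψ a) (hψ : ψ ≠ 1) (hR : Rk1 ρ ψ) (hT : Ty ρ ψ) (hm : 2 ≤ m)
    (hV : ∀ x, (∀ g, ρ g x = x) → x = 0) (v w : Fin m ⊕ Fin m → F) :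
    EE γ ρ v * EE γ ρ w = ψ (sympForm m F w v) • EE γ ρ (v + w) + ψ (-sympForm m F w v) • EE γ ρ (v - w) := by
  refine LinearMap.ext fun x => ?_
  change x ∈ LinearMap.eqLocus _ _
  by_cases h : sympForm m F v w = 0
  · refine ind1 (ρ := ρ) hψ v (fun b => hT.le fun a _ => ind3 hψ hR hT h fun b y h1 h2 h3 => ?_) x
    have h4 : y ∈ eg ρ ψ (spT (v + w)) ((a + b) ^ 2) := fun c => by
      rw [spT_add_eq h, map_mul, map_mul, End.mul_apply, End.mul_apply, h3, map_smul, h2, map_smul, map_smul, h1,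
        smul_smul, smul_smul, ← AddChar.map_add_eq_mul, ← AddChar.map_add_eq_mul]
      congr 2
      ring
    have h5 : y ∈ eg ρ ψ (spT (v - w)) ((a - b) ^ 2) := fun c => by
      rw [spT_sub_eq h, map_mul, map_mul, End.mul_apply, End.mul_apply, h3, map_smul, h2, map_smul, map_smul, h1,
        smul_smul, smul_smul, ← AddChar.map_add_eq_mul, ← AddChar.map_add_eq_mul]
      congr 2
      ring
    rw [LinearMap.mem_eqLocus]
    simp only [perp_symm h, neg_zero, AddChar.map_zero_eq_one, one_smul, End.mul_apply, LinearMap.add_apply,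
      EE_apply hγ h2, map_smul, EE_apply hγ h1, EE_apply hγ h4, EE_apply hγ h5, smul_smul, ← add_smul]
    rw [mul_comm, ev_mul]
  · refine span_eg hψ hR hm hV h (fun u b h1 h2 hb => hT.le fun a ha y hy => ?_) x
    have ha0 : a ≠ 0 := by rintro rfl; exact hb (by simpa using ha)
    have key : ∀ s t : F, ρ (hh u (s • v)) (ρ (hh u (t • w)) y) =
        ψ (s * t * a ^ 2 * sympForm m F w v) • ρ (hh u (s • v + t • w)) y := fun s t => by
      rw [← End.mul_apply, ← map_mul, hh_mul (by simp [sympForm_smul_right, h1]) (by simp [sympForm_smul_right, h2]),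
        map_mul, End.mul_apply, hy, map_smul, sympForm_smul_left, sympForm_smul_right]
      congr 2
      ring
    have e1 : a⁻¹ * a⁻¹ * a ^ 2 = 1 := by field_simp
    rw [LinearMap.mem_eqLocus, End.mul_apply, EE_heis hγ hψ hR hT h1 ha0 (EE_mem h2 hy), EE_heis hγ hψ hR hT h2 ha0 hy,
      LinearMap.add_apply, LinearMap.smul_apply, LinearMap.smul_apply,
      EE_heis hγ hψ hR hT (v := v + w) (by simp [sympForm_add_right, h1, h2]) ha0 hy,
      EE_heis hγ hψ hR hT (v := v - w) (by simp [sympForm_sub_right, h1, h2]) ha0 hy]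
    simp only [map_add, key]
    simp only [mul_neg, neg_mul, neg_neg, e1, one_mul, smul_add, neg_smul, sub_eq_add_neg, smul_neg]
    abel

theorem spT_eq_sum (hγ : ∀ a, ∑ c, γ c * ψ (c * a ^ 2) = ev ψ a) (hψ : ψ ≠ 1) (hT : Ty ρ ψ) {c : F} {k : F → ℂ}
    (hk : ∀ a, ∑ s, k s * ev ψ (s * a) = ψ (c * a ^ 2)) (v : Fin m ⊕ Fin m → F) :
    ρ (spT v c) = ∑ s, k s • EE γ ρ (s • v) := by
  refine LinearMap.ext fun x => ?_
  change x ∈ LinearMap.eqLocus _ _
  refine ind1 (ρ := ρ) hψ v (fun b => hT.le fun a _ y hy => ?_) x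
  rw [LinearMap.mem_eqLocus, hy, ← hk, sum_smul, LinearMap.sum_apply]
  refine sum_congr rfl fun s _ => ?_
  rw [LinearMap.smul_apply, EE_apply hγ (a := s * a) (fun d => by rw [spT_smul_left, hy]; congr 2; ring), smul_smul]

theorem mem_span_EE {A : Type*} [Ring A] [Algebra ℂ A] {ρ : symplecticGroup (Fin m) F →* A}
    (hmul : ∀ v w, EE γ ρ v * EE γ ρ w ∈ Submodule.span ℂ (Set.range (EE γ ρ)))
    (hT : ∀ v c, ρ (spT v c) ∈ Submodule.span ℂ (Set.range (EE γ ρ))) (g : symplecticGroup (Fin m) F) :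
    ρ g ∈ Submodule.span ℂ (Set.range (EE γ ρ)) := by
  have hg : g ∈ spTGroup (⊤ : Submodule F (Fin m ⊕ Fin m → F)) := by rw [spTGroup_top]; trivial
  induction hg using Subgroup.closure_induction'' with
  | one => simpa [spT_zero] using hT 0 0
  | mem g hg => obtain ⟨z, -, c, rfl⟩ := hg; exact hT z c
  | inv_mem g hg => obtain ⟨z, -, c, rfl⟩ := hg; rw [spT_inv]; exact hT z _
  | mul a b _ _ ha hb =>
    have := Submodule.mul_mem_mul ha hb
    rw [Submodule.span_mul_span] at this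
    rw [map_mul]
    refine Submodule.span_le.2 ?_ this
    rintro _ ⟨_, ⟨v, rfl⟩, _, ⟨w, rfl⟩, rfl⟩
    exact hmul v w

theorem card_le_two (h2 : (2 : F) ≠ 0) (hψ : ψ ≠ 1) (hm : 2 ≤ m) {ι : Type*} [Fintype ι] {n : ι → ℕ}
    (ρ : ∀ i, Representation ℂ (symplecticGroup (Fin m) F) (Fin (n i) → ℂ))
    (hli : LinearIndependent ℂ fun i => (ρ i).character) (hR : ∀ i, Rk1 (ρ i) ψ) (hT : ∀ i, Ty (ρ i) ψ)
    (hV : ∀ i x, (∀ g, ρ i g x = x) → x = 0) : Fintype.card ι ≤ 2 := by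
  obtain ⟨γ, hγ⟩ := exists_coef hψ
  let R : symplecticGroup (Fin m) F →* ∀ i, End ℂ (Fin (n i) → ℂ) := Pi.monoidHom ρ
  have hR' : ∀ g i, R g i = ρ i g := fun _ _ => rfl
  have hE : ∀ v i, EE γ R v i = EE γ (ρ i) v := fun v i => by simp [EE, hR']
  have h1 := mem_span_EE (γ := γ) (ρ := R) (fun v w => by
    rw [show EE γ R v * EE γ R w = ψ (sympForm m F w v) • EE γ R (v + w) + ψ (-sympForm m F w v) • EE γ R (v - w) from
      funext fun i => by simpa [hE] using EE_mul hγ hψ (hR i) (hT i) hm (hV i) v w]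
    exact add_mem (Submodule.smul_mem _ _ (Submodule.subset_span ⟨_, rfl⟩))
      (Submodule.smul_mem _ _ (Submodule.subset_span ⟨_, rfl⟩))) fun v c => by
    obtain ⟨k, hk⟩ := exists_coef' h2 hψ c
    rw [show R (spT v c) = ∑ s, k s • EE γ R (s • v) from
      funext fun i => by simpa [hE, hR'] using spT_eq_sum hγ hψ (hT i) hk v]
    exact Submodule.sum_mem _ fun s _ => Submodule.smul_mem _ _ (Submodule.subset_span ⟨_, rfl⟩)
  let e : Fin m ⊕ Fin m → F := Pi.single (.inl ⟨0, by omega⟩) 1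
  have he : e ≠ 0 := by simp [e]
  let τ := fun i v => LinearMap.trace ℂ _ (EE γ (ρ i) v)
  have hτ : ∀ i v, v ≠ 0 → τ i v = τ i e := fun i v hv => by
    obtain ⟨g, -, rfl⟩ := spNondeg_top.exists_smul_eq (u := e) (v := v) trivial trivial he hv
    simp only [τ, EE, map_sum, map_smul, ← conj_spT]
    exact sum_congr rfl fun c _ => congrArg _ ((ρ i).char_conj _ _)
  have h3 : LinearIndependent ℂ fun i => (τ i 0, τ i e) := by
    rw [Fintype.linearIndependent_iff] at hli ⊢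
    intro c hc
    refine hli c (funext fun g => ?_)
    let l : (∀ i, End ℂ (Fin (n i) → ℂ)) →ₗ[ℂ] ℂ := ∑ i, c i • LinearMap.trace ℂ _ ∘ₗ LinearMap.proj i
    have h4 : Submodule.span ℂ (Set.range (EE γ R)) ≤ LinearMap.ker l := Submodule.span_le.2 (by
      rintro _ ⟨v, rfl⟩
      have : l (EE γ R v) = ∑ i, c i * τ i v := by simp [l, hE, τ]
      rw [SetLike.mem_coe, LinearMap.mem_ker, this]
      by_cases hv : v = 0
      · simpa [hv, Prod.fst_sum] using congrArg Prod.fst hc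
      · simpa [hτ _ v hv, Prod.snd_sum] using congrArg Prod.snd hc)
    simpa [l, hR', Representation.character] using h4 (h1 g)
  simpa using h3.fintype_card_le_finrank

end Cfsg.Agent.WeilGap
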