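import Cfsg.Agent.WeilGap.D
import Cfsg.Agent.Deg.Weil

/-!
The Weil representation of `Sp_{2m}(q)`, `q` odd, and its two irreducible constituents (helper7): `exists_weil_hom`,
`exists_weil_char`; the diagonal automorphisms `dgHom`.
-/

set_option autoImplicit false

namespace Cfsg.Agent.WeilGap

open Module Matrix Cfsg.Agent.Classical Cfsg.Agent.Deg Finset

variable {F : Type*} [Field F]

section
variable [Fintype F] [DecidableEq F] {ψ : AddChar F ℂ}

theorem exists_weil_hom {ι : Type} [Fintype ι] [DecidableEq ι] (h2 : (2 : F) ≠ 0) (hψ : ψ ≠ 1) :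
    ∃ A : symplecticGroup ι F →* End ℂ ((ι → F) → ℂ), ∀ g, Imp ψ (g.1 *ᵥ ·) (A g) := by
  let r := fun (ε : ℂ) (A : End ℂ ((ι → F) → ℂ)) (h : Commute (par ι F) A) =>
    A.restrict (End.mapsTo_genEigenspace_of_comm h ε 1)
  have hd : finrank ℂ ((par ι F).eigenspace 1) = finrank ℂ ((par ι F).eigenspace (-1)) + 1 := by
    have h1 := finrank_eig (ι := ι) h2 (ε := 1) (by simp)
    have h3 := finrank_eig (ι := ι) h2 (ε := -1) (by simp)
    exact_mod_cast (show (finrank ℂ ((par ι F).eigenspace 1) : ℂ) = finrank ℂ ((par ι F).eigenspace (-1)) + 1 by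
      linear_combination (h1 - h3) / 2)
  have hne : ∀ ε A h, IsUnit A → LinearMap.det (r ε A h) ≠ 0 := fun ε A h hA h0 => by
    rw [LinearMap.det_eq_zero_iff_ker_ne_bot] at h0
    exact h0 (LinearMap.ker_eq_bot.2 fun x y e =>
      Subtype.ext (((Module.End.isUnit_iff _).1 hA).1 (congrArg Subtype.val e)))
  have hs : ∀ ε A h (c : ℂ), LinearMap.det (r ε (c • A) (h.smul_right c)) =
      c ^ finrank ℂ ((par ι F).eigenspace ε) * LinearMap.det (r ε A h) := fun ε A h c => LinearMap.det_smul c (r ε A h)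
  let N := fun (g : symplecticGroup ι F) A => ∃ h : Imp ψ (g.1 *ᵥ ·) A,
    LinearMap.det (r 1 A (h.comm h2 hψ)) = LinearMap.det (r (-1) A (h.comm h2 hψ))
  have hN : ∀ g, ∃ A, N g A := fun g => by
    obtain ⟨A, hA⟩ := exists_imp h2 hψ g
    have h1 := hne 1 A (hA.comm h2 hψ) hA.1
    have h3 := div_ne_zero (hne (-1) A (hA.comm h2 hψ) hA.1) h1
    refine ⟨(_ / _ : ℂ) • A, ⟨hA.1.smul (Units.mk0 _ h3), fun v => by simp [hA.2]⟩, ?_⟩
    rw [hs 1 _ (hA.comm h2 hψ), hs (-1) _ (hA.comm h2 hψ), hd, pow_succ, mul_assoc, div_mul_cancel₀ _ h1]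
  have hU : ∀ g A B, N g A → N g B → B = A := by
    rintro g A B ⟨hA, h1⟩ ⟨hB, h3⟩
    obtain ⟨c, rfl⟩ := hA.uniq h2 hψ hB
    have hc : c ≠ 0 := by rintro rfl; simpa using hB.1
    rw [hs 1 _ (hA.comm h2 hψ), hs (-1) _ (hA.comm h2 hψ), hd, h1, mul_left_inj' (hne _ _ (hA.comm h2 hψ) hA.1), pow_succ,
      mul_eq_left₀ (pow_ne_zero _ hc)] at h3
    rw [h3, one_smul]
  choose A hA using hN
  have h1 : A 1 = 1 := hU _ _ _ ⟨⟨isUnit_one, by simp⟩, (map_one LinearMap.det).trans (map_one LinearMap.det).symm⟩ (hA 1)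
  have hm : ∀ g h, A (g * h) = A g * A h := fun g h => hU _ _ _ ⟨by
    convert (hA g).1.mul (hA h).1 using 1
    funext v
    simp, (map_mul LinearMap.det (r 1 _ ((hA g).1.comm h2 hψ)) (r 1 _ ((hA h).1.comm h2 hψ))).trans (by
      rw [(hA g).2, (hA h).2, ← map_mul]; rfl)⟩ (hA _)
  exact ⟨⟨⟨A, h1⟩, hm⟩, fun g => (hA g).1⟩

theorem commutant {m : ℕ} (hm : 1 ≤ m) (h2 : (2 : F) ≠ 0) (hψ : ψ ≠ 1)
    {A : symplecticGroup (Fin m) F →* End ℂ ((Fin m → F) → ℂ)} (hA : ∀ g, Imp ψ (g.1 *ᵥ ·) (A g))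
    {X : End ℂ ((Fin m → F) → ℂ)} (hX : ∀ g, A g * X = X * A g) : ∃ a b : ℂ, X = a • 1 + b • par (Fin m) F := by
  obtain ⟨B, hB⟩ := exists_basis (ι := Fin m) h2 hψ
  let e : Fin m ⊕ Fin m → F := Pi.single (.inl ⟨0, by omega⟩) 1
  have he : e ≠ 0 := by simp [e]
  have key : ∀ X : End ℂ ((Fin m → F) → ℂ), (∀ g, A g * X = X * A g) →
      ∃ a b : ℂ, X = a • 1 + b • ∑ v, weyl ψ v := fun X hX => by
    have h1 : ∀ (g : symplecticGroup (Fin m) F) v, B.repr X (g • v) = B.repr X v := fun g v => by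
      have h3 : X = ∑ w, B.repr X (g⁻¹ • w) • B w := by
        rw [← Equiv.sum_comp (MulAction.toPerm g)]
        refine (hA g).1.mul_right_cancel ?_
        rw [← hX]
        conv_lhs => rw [← B.sum_repr X]
        simp only [mul_sum, sum_mul, mul_smul_comm, smul_mul_assoc, hB, (hA g).2, MulAction.toPerm_apply, inv_smul_smul]
        rfl
      conv_lhs => rw [h3]
      simp [Finsupp.single_apply]
    refine ⟨B.repr X 0 - B.repr X e, B.repr X e, ?_⟩
    conv_lhs => rw [← B.sum_repr X]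
    rw [smul_sum, ← sub_eq_iff_eq_add, ← sum_sub_distrib, sum_eq_single 0 (fun v _ hv => ?_) (by simp)]
    · rw [hB, weyl_zero]
      exact LinearMap.ext fun f => by simp [_root_.sub_smul]
    · obtain ⟨g, -, rfl⟩ := spNondeg_top.exists_smul_eq (u := e) (v := v) trivial trivial he hv
      rw [h1, hB, sub_self]
  obtain ⟨a, b, rfl⟩ := key X hX
  obtain ⟨c, d, h⟩ := key (par (Fin m) F) fun g => ((hA g).comm h2 hψ).symm
  have hd : d ≠ 0 := by
    rintro rfl
    let y : Fin m → F := Pi.single ⟨0, by omega⟩ 1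
    have hy : -y ≠ y := fun e => h2 (by
      simpa [y, neg_eq_iff_add_eq_zero, one_add_one_eq_two] using congrFun e ⟨0, by omega⟩)
    simpa [par, hy] using congrFun (LinearMap.congr_fun h (Pi.single y 1)) (-y)
  refine ⟨a - b / d * c, b / d, ?_⟩
  rw [h, smul_add, smul_smul, smul_smul, div_mul_cancel₀ _ hd, ← add_assoc]
  exact LinearMap.ext fun f => by simp [_root_.sub_smul]

theorem exists_weil_char {m : ℕ} (hm : 1 ≤ m) (h2 : (2 : F) ≠ 0) {ε : ℂ} (hε : ε * ε = 1)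
    (h0 : (Fintype.card F : ℂ) ^ m + ε ≠ 0) : ∃ χ, IsIrrCharacter (symplecticGroup (Fin m) F) χ ∧
      2 * χ 1 = (Fintype.card F : ℂ) ^ m + ε := by
  obtain ⟨ψ, hψ⟩ := exists_complex_psi F
  obtain ⟨A, hA⟩ := exists_weil_hom (ι := Fin m) h2 hψ
  let ρ : Representation ℂ (symplecticGroup (Fin m) F) ((par (Fin m) F).eigenspace ε) :=
    ⟨⟨fun g => (A g).restrict (End.mapsTo_genEigenspace_of_comm ((hA g).comm h2 hψ) ε 1),
      LinearMap.ext fun x => Subtype.ext (LinearMap.congr_fun (map_one A) x.1)⟩,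
      fun g h => LinearMap.ext fun x => Subtype.ext (LinearMap.congr_fun (map_mul A g h) x.1)⟩
  have hd := finrank_eig (ι := Fin m) h2 hε
  rw [Fintype.card_fin] at hd
  have : ρ.IsIrreducible := (Char.isIrreducible_iff ρ).2 ⟨finrank_pos_iff.1 (Nat.pos_of_ne_zero fun h => h0 (by
    rw [← hd, h]; simp)), fun U hU => by
    have := Fintype.ofFinite (symplecticGroup (Fin m) F)
    let U' := U.map ((par (Fin m) F).eigenspace ε).subtype
    have hU' : ∀ g, ∀ x ∈ U', A g x ∈ U' := by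
      rintro g _ ⟨x, hx, rfl⟩
      exact ⟨_, hU g x hx, rfl⟩
    obtain ⟨W, hW⟩ := U'.exists_isCompl
    obtain ⟨a, b, h⟩ := commutant hm h2 hψ hA (X := ∑ g, A g * U'.projection W hW * A g⁻¹) fun g => by
      rw [mul_sum, sum_mul, ← Equiv.sum_comp (Equiv.mulLeft g) fun h => A h * U'.projection W hW * A h⁻¹ * A g]
      refine sum_congr rfl fun h _ => ?_
      simp only [Equiv.coe_mulLeft, mul_assoc, ← map_mul, _root_.mul_inv_rev, inv_mul_cancel, mul_one]
      rw [map_mul, mul_assoc]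
    have h1 : ∀ y : (par (Fin m) F).eigenspace ε, ∑ g, A g (U'.projection W hW (A g⁻¹ y)) = (a + b * ε) • y.1 :=
      fun y => by simpa [End.mem_eigenspace_iff.1 y.2, smul_smul, add_smul] using LinearMap.congr_fun h y
    by_cases hb : U = ⊥
    · exact .inl hb
    obtain ⟨x, hx, hx0⟩ := (Submodule.ne_bot_iff _).1 hb
    have h3 : a + b * ε ≠ 0 := fun h3 => by
      have h4 := h1 x
      rw [h3, zero_smul, sum_congr rfl fun g _ => by
        rw [Submodule.projection_apply_of_mem_left hW (hU' g⁻¹ x.1 ⟨x, hx, rfl⟩), ← End.mul_apply, ← map_mul, mul_inv_cancel,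
          map_one, End.one_apply], sum_const, ← Nat.cast_smul_eq_nsmul ℂ] at h4
      exact hx0 (Subtype.ext ((smul_eq_zero.1 h4).resolve_left (Nat.cast_ne_zero.2 (by simp))))
    refine .inr (eq_top_iff.2 fun y _ => ?_)
    obtain ⟨z, hz, e⟩ : y.1 ∈ U' := (U'.smul_mem_iff h3).1 (h1 y ▸ U'.sum_mem fun g _ =>
      hU' _ _ (Submodule.projection_apply_mem hW _))
    exact Subtype.ext e ▸ hz⟩
  exact ⟨_, Char.isIrrCharacter_character ρ, by rw [Representation.char_one, hd]⟩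

end

variable {m : ℕ}

/-- The diagonal similitude with multiplier `d`. -/
def dg (m : ℕ) (d : F) : Matrix (Fin m ⊕ Fin m) (Fin m ⊕ Fin m) F := diagonal (Sum.elim (fun _ => d) fun _ => 1)

theorem dg_mul {d : F} (hd : d ≠ 0) : dg m d⁻¹ * dg m d = 1 := by
  rw [dg, dg, diagonal_mul_diagonal, ← diagonal_one]
  congr 1
  funext i
  rcases i with i | i <;> simp [hd]

theorem dg_mul' {d : F} (hd : d ≠ 0) : dg m d * dg m d⁻¹ = 1 := by simpa using dg_mul (m := m) (inv_ne_zero hd)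

theorem sympForm_dg (d : F) (x y : Fin m ⊕ Fin m → F) :
    sympForm m F (dg m d *ᵥ x) (dg m d *ᵥ y) = d * sympForm m F x y := by
  simp only [sympForm_eq_sum, dg, mulVec_diagonal, Sum.elim_inl, Sum.elim_inr, mul_sum]
  exact sum_congr rfl fun i _ => by ring

/-- Conjugation by `dg m d`. -/
def dgHom (m : ℕ) {d : F} (hd : d ≠ 0) : symplecticGroup (Fin m) F →* symplecticGroup (Fin m) F where
  toFun g := ⟨dg m d * g.1 * dg m d⁻¹, mem_sp_iff.2 fun u v => by
    simp only [← mulVec_mulVec, sympForm_dg, mem_sp_iff.1 g.2, mul_inv_cancel_left₀ hd]⟩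
  map_one' := Subtype.ext (by simp [dg_mul' hd])
  map_mul' g h := Subtype.ext (by
    simp only [Submonoid.coe_mul, Matrix.mul_assoc]
    rw [← Matrix.mul_assoc (dg m d⁻¹), dg_mul hd, Matrix.one_mul])

theorem dgHom_surjective {d : F} (hd : d ≠ 0) : Function.Surjective (dgHom m hd) := fun g =>
  ⟨dgHom m (inv_ne_zero hd) g, Subtype.ext (by
    change dg m d * (dg m d⁻¹ * g.1 * dg m d⁻¹⁻¹) * dg m d⁻¹ = _
    simp only [inv_inv, ← Matrix.mul_assoc, dg_mul' hd, Matrix.one_mul]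
    rw [Matrix.mul_assoc, dg_mul' hd, Matrix.mul_one])⟩

theorem dgHom_spT {d : F} (hd : d ≠ 0) (v : Fin m ⊕ Fin m → F) (c : F) :
    dgHom m hd (spT v (d * c)) = spT (dg m d *ᵥ v) c := sp_ext fun x => by
  change (dg m d * (spT v (d * c)).1 * dg m d⁻¹) *ᵥ x = _
  have : sympForm m F (dg m d⁻¹ *ᵥ x) v = d⁻¹ * sympForm m F x (dg m d *ᵥ v) := by
    rw [← sympForm_dg, mulVec_mulVec, dg_mul hd, one_mulVec]
  rw [← mulVec_mulVec, ← mulVec_mulVec, ← sp_smul_def, spT_smul, spT_smul, mulVec_add, mulVec_smul, mulVec_mulVec,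
    dg_mul' hd, one_mulVec, this]
  congr 2
  field_simp

end Cfsg.Agent.WeilGap
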